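import Cfsg.Agent.LSSp.Theta
import Cfsg.Agent.LSU.Irr

/-!
Lower bound for degrees of representations of symplectic groups in even characteristic.
-/

set_option autoImplicit false
set_option linter.unusedSectionVars false

namespace Cfsg.Agent.LSSp

open Module Matrix Cfsg.Agent.ClassSp Cfsg.Agent.H39 Cfsg.Agent.LSU

universe v

variable {k : Type*} [Fintype k] [DecidableEq k] {F : Type*} [Field F] [Fintype F]
variable {V : Type*} [AddCommGroup V] [Module ℂ V]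

theorem sf_e0_ex (w : k ⊕ k → F) : sf (e0 k F) (ex 0 0 w) = 0 := by
  rw [e0, sf_ex, sf_zero_left]; ring

theorem sf_ex_e0 (w : k ⊕ k → F) : sf (ex 0 0 w) (e0 k F) = 0 := by
  rw [sf_swap, sf_e0_ex, neg_zero]

theorem e0_ne : e0 k F ≠ 0 := by
  intro h
  have := congrFun h (Sum.inl none)
  rw [e0, ex_inl_none] at this
  exact one_ne_zero this

theorem ex_ne {w : k ⊕ k → F} (hw : w ≠ 0) : ex 0 0 w ≠ 0 := by
  intro h
  apply hw
  rw [← res_ex 0 0 w, h]; rfl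

theorem ex_add' (w w' : k ⊕ k → F) : ex 0 0 (w + w') = ex 0 0 w + ex 0 0 w' := by
  rw [← ex_add, add_zero]

theorem ex_zero : ex 0 0 (0 : k ⊕ k → F) = 0 := by
  ext x; rcases x with (_ | x) | (_ | x) <;> simp [ex]

theorem ac_ee_e0 (w : k ⊕ k → F) : ac (ee (e0 k F) (ex 0 0 w)) (e0 k F) = e0 k F := by
  rw [ac_ee (sf_e0_ex w), sf_self, sf_e0_ex]
  simp

variable [CharP F 2]

/-- base phase -/
def q0 (w : k ⊕ k → F) : F := ∑ i, w (Sum.inl i) * w (Sum.inr i)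

theorem q0_add (w w' : k ⊕ k → F) : q0 (w + w') = q0 w + q0 w' + sf w' w := by
  rw [q0, q0, q0, sf, ← Finset.sum_add_distrib, ← Finset.sum_add_distrib]
  refine Finset.sum_congr rfl fun i _ => ?_
  rw [Pi.add_apply, Pi.add_apply, CharTwo.sub_eq_add]
  ring

theorem q0_zero : q0 (0 : k ⊕ k → F) = 0 := by simp [q0]

/-- the phase functions `ψ (q0 w) * χ w` -/
noncomputable def th (ψ : AddChar F ℂ) (χ : AddChar (k ⊕ k → F) ℂ) (w : k ⊕ k → F) : ℂ := ψ (q0 w) * χ w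

theorem isTh_th (ψ : AddChar F ℂ) (χ : AddChar (k ⊕ k → F) ℂ) : IsTh ψ (th ψ χ) := by
  refine ⟨by rw [th, q0_zero, AddChar.map_zero_eq_one, AddChar.map_zero_eq_one, one_mul], fun w w' => ?_⟩
  rw [th, th, th, q0_add, AddChar.map_add_eq_mul, AddChar.map_add_eq_mul, AddChar.map_add_eq_mul]
  ring

variable (ρ : Representation ℂ (symplecticGroup (Option k) F) V) (ψ : AddChar F ℂ)

/-- weight vectors of the unipotent radical -/
def IsW (θ : (k ⊕ k → F) → ℂ) (m : V) : Prop :=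
  m ∈ wt (TS ρ (e0 k F)) ψ ∧ ∀ w, ρ (ee (e0 k F) (ex 0 0 w)) m = θ w • m

/-- the action of the unipotent radical, made linear -/
noncomputable def UU (w : k ⊕ k → F) : wt (TS ρ (e0 k F)) ψ →ₗ[ℂ] wt (TS ρ (e0 k F)) ψ :=
  ψ (q0 w) • rW ρ ψ (ee (e0 k F) (ex 0 0 w)) (ac_ee_e0 w)

theorem coe_UU (w : k ⊕ k → F) (m : wt (TS ρ (e0 k F)) ψ) :
    ((UU ρ ψ w m : wt (TS ρ (e0 k F)) ψ) : V) = ψ (q0 w) • ρ (ee (e0 k F) (ex 0 0 w)) m := rfl

theorem UU_zero (m : wt (TS ρ (e0 k F)) ψ) : UU ρ ψ 0 m = m := by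
  apply Subtype.ext
  rw [coe_UU, q0_zero, AddChar.map_zero_eq_one, one_smul, ex_zero, ee_zero, map_one]; rfl

theorem UU_add (w w' : k ⊕ k → F) (m : wt (TS ρ (e0 k F)) ψ) : UU ρ ψ (w + w') m = UU ρ ψ w (UU ρ ψ w' m) := by
  apply Subtype.ext
  rw [coe_UU, coe_UU, coe_UU, map_smul, smul_smul, ← Module.End.mul_apply, ← map_mul ρ,
    ee_mul (sf_e0_ex w) (sf_e0_ex w'), sf_ex, map_mul, Module.End.mul_apply, ex_add']
  have h1 : ρ (ee (e0 k F) (ex 0 0 w + ex 0 0 w')) m ∈ wt (TS ρ (e0 k F)) ψ := by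
    rw [← ex_add']
    exact wt_of_fix ρ (ac_ee_e0 _) ψ m.2
  have h2 := h1 (sf w' w)
  rw [TS] at h2
  have h3 : (0 : F) * 0 - 0 * 0 + sf w' w = sf w' w := by ring
  rw [h3, h2, smul_smul, q0_add, AddChar.map_add_eq_mul, AddChar.map_add_eq_mul]

theorem mem_wt_UU {χ : AddChar (k ⊕ k → F) ℂ} {m : wt (TS ρ (e0 k F)) ψ} :
    m ∈ wt (UU ρ ψ) χ ↔ IsW ρ ψ (th ψ χ) m := by
  rw [mem_wt, IsW]
  refine ⟨fun h => ⟨m.2, fun w => ?_⟩, fun h w => ?_⟩
  · have h1 := congrArg (fun z : wt (TS ρ (e0 k F)) ψ => ψ (q0 w) • (z : V)) (h w)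
    simp only [coe_UU, smul_smul, psi_sq (F := F) ψ, one_smul, Submodule.coe_smul] at h1
    rw [h1, th]
  · apply Subtype.ext
    rw [coe_UU, h.2 w, smul_smul, th, ← mul_assoc, psi_sq (F := F) ψ, one_mul, Submodule.coe_smul]

variable {ρ ψ}

theorem IsW.conj {θ : (k ⊕ k → F) → ℂ} {m : V} (h : IsW ρ ψ θ m) (g : symplecticGroup k F) :
    IsW ρ ψ (fun w => θ (ac g⁻¹ w)) (ρ (emb g) m) := by
  refine ⟨wt_of_fix ρ (ac_emb_e0 g) ψ h.1, fun w => ?_⟩
  have e : ee (e0 k F) (ex 0 0 w) * emb g = emb g * ee (e0 k F) (ex 0 0 (ac g⁻¹ w)) := by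
    rw [ee_conj (sf_e0_ex _), ac_emb_e0, ac, emb_mulVec_ex]
    have := ac_ac_inv g w
    rw [ac] at this
    rw [this]
  rw [← Module.End.mul_apply, ← map_mul, e, map_mul, Module.End.mul_apply, h.2, map_smul]

theorem ac_tv_inv (v : k ⊕ k → F) (c : F) (w : k ⊕ k → F) : ac (tv v c)⁻¹ w = w + (c * sf w v) • v := by
  rw [← tv_neg, CharTwo.neg_eq, ac_tv]

theorem th_tv {θ : (k ⊕ k → F) → ℂ} (hθ : IsTh ψ θ) (v : k ⊕ k → F) (c : F) (w : k ⊕ k → F) :
    θ (w + (c * sf w v) • v) = θ w * (θ ((c * sf w v) • v) * ψ (c * (sf w v * sf w v))) := by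
  rw [hθ.2, sf_smul_left, sf_swap v w, CharTwo.neg_eq, mul_assoc, mul_assoc c]

/-- orbit of a weight -/
theorem IsW.reach (hψ : ψ ≠ 0) {θ : (k ⊕ k → F) → ℂ} {m : V} (hθ : IsTh ψ θ) (h : IsW ρ ψ θ m) {v : k ⊕ k → F}
    (hv : θ v = 1) : ∃ g : symplecticGroup k F, IsW ρ ψ (fun w => θ w * ψ (sf w v)) (ρ (emb g) m) := by
  let η : AddChar F ℂ :=
    { toFun := fun y => θ (y • v)
      map_zero_eq_one' := by rw [zero_smul, hθ.1]
      map_add_eq_mul' := fun a b => by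
        rw [add_smul, hθ.2, sf_smul_left, sf_smul_right, sf_self, mul_zero, mul_zero, AddChar.map_zero_eq_one, mul_one] }
  obtain ⟨δ, hδ⟩ := exists_shift hψ η
  have hδ' : ∀ y : F, θ (y • v) = ψ (δ * y) := hδ
  have h1 : ψ δ = 1 := by
    have := hδ' 1
    rw [one_smul, mul_one, hv] at this
    exact this.symm
  obtain ⟨c, hc⟩ := exists_quad hψ h1
  refine ⟨tv v c, ?_⟩
  have h2 := h.conj (tv v c)
  have h3 : (fun w => θ (ac (tv v c)⁻¹ w)) = fun w => θ w * ψ (sf w v) := by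
    funext w
    rw [ac_tv_inv, th_tv hθ, hδ', hc]
  rwa [h3] at h2

variable (ρ ψ)

theorem exists_isW (hne : wt (TS ρ (e0 k F)) ψ ≠ ⊥) [FiniteDimensional ℂ V] :
    ∃ χ : AddChar (k ⊕ k → F) ℂ, wt (UU ρ ψ) χ ≠ ⊥ := by
  classical
  by_contra hcon
  push Not at hcon
  apply hne
  rw [← Submodule.finrank_eq_zero (R := ℂ), finrank_eq_sum_wt (UU ρ ψ) (UU_zero ρ ψ) (UU_add ρ ψ)]
  refine Finset.sum_eq_zero fun χ _ => ?_
  rw [hcon, finrank_bot]

theorem wt_dim (hψ : ψ ≠ 0) [FiniteDimensional ℂ V] (hne : wt (TS ρ (e0 k F)) ψ ≠ ⊥) :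
    Fintype.card F ^ Fintype.card k * (Fintype.card F ^ Fintype.card k - 1) / 2 ≤ finrank ℂ (wt (TS ρ (e0 k F)) ψ) := by
  classical
  obtain ⟨χ, hχ⟩ := exists_isW ρ ψ hne
  have hθ := isTh_th ψ χ
  refine (card_th_ge hψ hθ).trans ?_
  rw [finrank_eq_sum_wt (UU ρ ψ) (UU_zero ρ ψ) (UU_add ρ ψ)]
  set S : Finset (k ⊕ k → F) := Finset.univ.filter fun v => th ψ χ v = 1 with hS
  have h1 : ∀ v ∈ S, 1 ≤ finrank ℂ (wt (UU ρ ψ) (χ + sfChar ψ v)) := by
    intro v hv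
    rw [Nat.one_le_iff_ne_zero, ne_eq, Submodule.finrank_eq_zero]
    obtain ⟨m, hm, hm0⟩ := (Submodule.ne_bot_iff _).1 hχ
    obtain ⟨g, hg⟩ := ((mem_wt_UU ρ ψ).1 hm).reach hψ hθ (Finset.mem_filter.1 hv).2
    intro hbot
    have h2 : (⟨ρ (emb g) m, hg.1⟩ : wt (TS ρ (e0 k F)) ψ) ∈ wt (UU ρ ψ) (χ + sfChar ψ v) := by
      rw [mem_wt_UU]
      have e : th ψ (χ + sfChar ψ v) = fun w => th ψ χ w * ψ (sf w v) := by
        funext w
        rw [th, th, AddChar.add_apply, sfChar_apply, mul_assoc]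
      rw [e]
      exact hg
    rw [hbot, Submodule.mem_bot] at h2
    apply hm0
    apply Subtype.ext
    have h3 : ρ (emb g) (m : V) = 0 := congrArg Subtype.val h2
    rw [← ρ_inv_apply ρ (emb g) (m : V), h3, map_zero]; rfl
  calc S.card = ∑ v ∈ S, 1 := by simp
    _ ≤ ∑ v ∈ S, finrank ℂ (wt (UU ρ ψ) (χ + sfChar ψ v)) := Finset.sum_le_sum h1
    _ = ∑ φ ∈ S.image (fun v => χ + sfChar ψ v), finrank ℂ (wt (UU ρ ψ) φ) := by
        rw [Finset.sum_image]
        intro a _ b _ hab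
        exact sfChar_injective hψ (add_left_cancel hab)
    _ ≤ ∑ φ, finrank ℂ (wt (UU ρ ψ) φ) := Finset.sum_le_sum_of_subset (Finset.subset_univ _)

/-- the character `v ↦ ψ (c (sf v w)^2)` -/
def sqChar (c : F) (w : k ⊕ k → F) : AddChar (k ⊕ k → F) ℂ where
  toFun v := ψ (c * (sf v w * sf v w))
  map_zero_eq_one' := by rw [sf_zero_left, mul_zero, mul_zero, AddChar.map_zero_eq_one]
  map_add_eq_mul' a b := by
    rw [← AddChar.map_add_eq_mul]
    congr 1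
    have : c * (sf (a + b) w * sf (a + b) w) = c * (sf a w * sf a w) + c * (sf b w * sf b w) +
        (c * (sf a w * sf b w) + c * (sf a w * sf b w)) := by rw [sf_add_left]; ring
    rw [this, CharTwo.add_self_eq_zero, add_zero]

theorem sqChar_apply (c : F) (w v : k ⊕ k → F) : sqChar ψ c w v = ψ (c * (sf v w * sf v w)) := rfl

theorem sqChar_ne (hψ : ψ ≠ 0) {c : F} (hc : c ≠ 0) {w : k ⊕ k → F} (hw : w ≠ 0) : sqChar ψ c w ≠ 0 := by
  intro h
  apply hψ
  ext y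
  obtain ⟨z, hz⟩ := FiniteField.isSquare_of_char_two (F := F) (ringChar.eq F 2) (c⁻¹ * y)
  obtain ⟨u, hu⟩ := exists_sf_ne_zero hw
  have h1 := DFunLike.congr_fun h ((z * (sf u w)⁻¹) • u)
  rw [sqChar_apply, sf_smul_left, inv_mul_cancel_right₀ hu, ← hz, mul_inv_cancel_left₀ hc] at h1
  exact h1

theorem exists_not_le (hk : 2 ≤ Fintype.card k) [FiniteDimensional ℂ V] (hnt : wt (TS ρ (e0 k F)) 0 ≠ ⊤) :
    ∃ w : k ⊕ k → F, w ≠ 0 ∧ ¬ wt (TS ρ (e0 k F)) 0 ≤ wt (TS ρ (ex 0 0 w)) 0 := by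
  classical
  have hnt1 : ∃ a v, TS ρ (e0 k F) a v ≠ v := by
    by_contra hcon
    push Not at hcon
    exact hnt ((wt_zero_top_iff ρ _).2 hcon)
  obtain ⟨ψ, hψ, hne⟩ := exists_wt_ne_bot (TS ρ (e0 k F)) (TS_zero ρ _) (TS_add ρ _) hnt1
  obtain ⟨χ, hχ⟩ := exists_isW ρ ψ hne
  have hθ := isTh_th ψ χ
  obtain ⟨m, hm, hm0⟩ := (Submodule.ne_bot_iff _).1 hχ
  obtain ⟨w, hw0, hw⟩ := exists_line hψ hθ hk
  refine ⟨w, hw0, fun hle => ?_⟩
  have heq : wt (TS ρ (e0 k F)) 0 = wt (TS ρ (ex 0 0 w)) 0 :=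
    Submodule.eq_of_le_of_finrank_eq hle (finrank_wt_zero ρ e0_ne (ex_ne hw0))
  have hmW := (mem_wt_UU ρ ψ).1 hm
  -- the translates
  have hc : ∀ c : F, IsW ρ ψ (th ψ (χ + sqChar ψ c w)) (ρ (emb (tv w c)) m) := by
    intro c
    have h2 := hmW.conj (tv w c)
    have h3 : (fun x => th ψ χ (ac (tv w c)⁻¹ x)) = th ψ (χ + sqChar ψ c w) := by
      funext x
      rw [ac_tv_inv, th_tv hθ, hw, one_mul, th, th, AddChar.add_apply, sqChar_apply, mul_assoc]
    rwa [h3] at h2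
  let mc : F → wt (TS ρ (e0 k F)) ψ := fun c => ⟨ρ (emb (tv w c)) m, (hc c).1⟩
  have hmc : ∀ c, mc c ∈ wt (UU ρ ψ) (χ + sqChar ψ c w) := fun c => (mem_wt_UU ρ ψ).2 (hc c)
  have hproj : wtProj (UU ρ ψ) χ (∑ c, mc c) = (Fintype.card (k ⊕ k → F) : ℂ) • mc 0 := by
    rw [map_sum, Finset.sum_eq_single (0 : F)]
    · rw [wtProj_of_mem (UU ρ ψ) χ _ _ (hmc 0), if_pos]
      have : sqChar ψ 0 w = 0 := by
        ext x
        rw [sqChar_apply, zero_mul, AddChar.map_zero_eq_one, AddChar.zero_apply]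
      rw [this, add_zero]
    · intro c _ hc0
      rw [wtProj_of_mem (UU ρ ψ) χ _ _ (hmc c), if_neg]
      intro h
      have h1 : χ + 0 = χ + sqChar ψ c w := by rw [add_zero]; exact h
      exact sqChar_ne ψ hψ hc0 hw0 (add_left_cancel h1).symm
    · intro h; exact absurd (Finset.mem_univ _) h
  have hm0' : mc 0 = m := by
    apply Subtype.ext
    change ρ (emb (tv w 0)) (m : V) = m
    rw [tv_zero, map_one, map_one]; rfl
  -- the sum is fixed
  have hfix : ((∑ c, mc c : wt (TS ρ (e0 k F)) ψ) : V) ∈ wt (TS ρ (ex 0 0 w)) 0 := by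
    rw [mem_wt_zero]
    intro a
    rw [AddSubmonoidClass.coe_finsetSum, map_sum, ← Equiv.sum_comp (Equiv.addLeft a) (fun c => ((mc c : wt (TS ρ (e0 k F)) ψ) : V))]
    refine Finset.sum_congr rfl fun c _ => ?_
    change ρ (tv (ex 0 0 w) a) (ρ (emb (tv w c)) (m : V)) = ρ (emb (tv w (a + c))) (m : V)
    rw [emb_tv, emb_tv, tv_add, map_mul]; rfl
  rw [← heq, mem_wt_zero] at hfix
  obtain ⟨c, hc1⟩ := exists_ne_of_ne_zero hψ
  have h4 := (∑ c, mc c : wt (TS ρ (e0 k F)) ψ).2 c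
  rw [hfix c] at h4
  have h5 : (∑ c, mc c : wt (TS ρ (e0 k F)) ψ) = 0 := by
    apply Subtype.ext
    have h6 : (ψ c - 1) • ((∑ c, mc c : wt (TS ρ (e0 k F)) ψ) : V) = 0 := by
      rw [sub_smul, one_smul, ← h4, sub_self]
    exact (smul_eq_zero.1 h6).resolve_left (sub_ne_zero.2 hc1)
  rw [h5, map_zero, hm0'] at hproj
  have hcard : (Fintype.card (k ⊕ k → F) : ℂ) ≠ 0 := by
    simp [Fintype.card_ne_zero]
  exact hm0 ((smul_eq_zero.1 hproj.symm).resolve_left hcard)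

theorem bound_step [FiniteDimensional ℂ V] (hnt : wt (TS ρ (e0 k F)) 0 ≠ ⊤) :
    finrank ℂ (wt (TS ρ (e0 k F)) 0) +
      (Fintype.card F - 1) * (Fintype.card F ^ Fintype.card k * (Fintype.card F ^ Fintype.card k - 1) / 2) ≤
      finrank ℂ V := by
  have hnt1 : ∃ a v, TS ρ (e0 k F) a v ≠ v := by
    by_contra hcon
    push Not at hcon
    exact hnt ((wt_zero_top_iff ρ _).2 hcon)
  obtain ⟨ψ, hψ, hne⟩ := exists_wt_ne_bot (TS ρ (e0 k F)) (TS_zero ρ _) (TS_add ρ _) hnt1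
  apply finrank_ge (TS ρ (e0 k F)) (TS_zero ρ _) (TS_add ρ _) hψ
  intro c hc
  have h1 := wt_shift_ne_bot ρ e0_ne hne hc (FiniteField.isSquare_of_char_two (ringChar.eq F 2) c)
  refine wt_dim ρ _ ?_ h1
  have hprim := AddChar.IsPrimitive.of_ne_one (ψ := ψ) (by rwa [AddChar.one_eq_zero])
  have := hprim hc
  rwa [AddChar.one_eq_zero] at this

omit ρ ψ

/-- the bound -/
def BE (q : ℕ) : ℕ → ℕ
  | 0 => 0
  | m + 1 => (q - 1) * (q ^ m * (q ^ m - 1) / 2) + BE q m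

theorem BE_one (q : ℕ) : BE q 1 = 0 := by simp [BE]

/-- nontriviality is inherited by the standard transvection group -/
theorem nt_e0 {ρ : Representation ℂ (symplecticGroup (Option k) F) V} {u : Option k ⊕ Option k → F}
    (h : wt (TS ρ u) 0 ≠ ⊤) : wt (TS ρ (e0 k F)) 0 ≠ ⊤ := by
  intro htop
  apply h
  rw [wt_zero_top_iff] at htop ⊢
  intro c v
  by_cases hu : u = 0
  · rw [TS, hu]
    have : tv (0 : Option k ⊕ Option k → F) c = 1 := by
      apply ac_ext; intro x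
      rw [ac_tv, smul_zero, add_zero, ac_one]
    rw [this, map_one]; rfl
  · obtain ⟨g, _, hg⟩ := exists_mem_tvGroup (e0_ne (k := k) (F := F)) hu
    have hg : ac g (e0 k F) = u := hg
    have h1 := TS_conj ρ (e0 k F) g c (ρ g⁻¹ v)
    rw [hg, ρ_apply_inv, htop, ρ_apply_inv] at h1
    exact h1

theorem bound_even (n : ℕ) : ∀ (V : Type v) [AddCommGroup V] [Module ℂ V] [FiniteDimensional ℂ V]
    (ρ : Representation ℂ (symplecticGroup (Fin n) F) V) (u : Fin n ⊕ Fin n → F), wt (TS ρ u) 0 ≠ ⊤ →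
    BE (Fintype.card F) n ≤ finrank ℂ V := by
  induction n with
  | zero => intros; exact Nat.zero_le _
  | succ m ih =>
    intro V _ _ _ ρ u hu
    let e : Option (Fin m) ≃ Fin (m + 1) := (finSuccEquiv m).symm
    let ρ' : Representation ℂ (symplecticGroup (Option (Fin m)) F) V := ρ.comp (reindexSp e).toMonoidHom
    have hρ' : ∀ g, ρ' g = ρ (reindexSp e g) := fun _ => rfl
    have hu' : wt (TS ρ' (u ∘ (e.sumCongr e))) 0 ≠ ⊤ := by
      intro htop
      apply hu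
      rw [wt_zero_top_iff] at htop ⊢
      intro c v
      have h1 := htop c v
      rw [TS, hρ', reindexSp_tv] at h1
      have h2 : (u ∘ (e.sumCongr e)) ∘ (e.symm.sumCongr e.symm) = u := by
        ext x; simp
      rw [h2] at h1
      exact h1
    have hnt := nt_e0 hu'
    have h1 := bound_step ρ' hnt
    rw [Fintype.card_fin] at h1
    rcases Nat.lt_or_ge m 2 with hm | hm
    · have h2 : BE (Fintype.card F) m = 0 := by
        interval_cases m
        · rfl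
        · exact BE_one _
      rw [BE, h2]
      omega
    · obtain ⟨w, hw0, hw⟩ := exists_not_le ρ' (by rwa [Fintype.card_fin]) hnt
      have h2 := ih _ (subRep ρ') w (by
        intro htop
        apply hw
        intro v hv
        rw [mem_wt_zero]
        intro c
        have := (wt_zero_top_iff _ _).1 htop c ⟨v, hv⟩
        have h3 := congrArg Subtype.val this
        rw [coe_TS_subRep] at h3
        exact h3)
      rw [BE]
      omega

theorem BE_closed {q : ℕ} (hq : 2 ≤ q) (n : ℕ) : BE q (n + 1) = (q ^ (n + 1) - 1) * (q ^ (n + 1) - q) / (2 * (q + 1)) := by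
  have h : ∀ n, BE q (n + 1) * (2 * (q + 1)) = (q ^ (n + 1) - 1) * (q ^ (n + 1) - q) := by
    intro n
    induction n with
    | zero => rw [BE_one]; simp
    | succ n ih =>
      have h1 : 2 * (q ^ (n + 1) * (q ^ (n + 1) - 1) / 2) = q ^ (n + 1) * (q ^ (n + 1) - 1) := by
        apply Nat.mul_div_cancel'
        obtain ⟨p, hp⟩ : ∃ p, q ^ (n + 1) = p + 1 := ⟨q ^ (n + 1) - 1, by
          have : 0 < q ^ (n + 1) := by positivity
          omega⟩
        rw [hp, Nat.add_sub_cancel, mul_comm]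
        exact (Nat.even_mul_succ_self p).two_dvd
      have h2 : BE q (n + 1 + 1) * (2 * (q + 1)) =
          (q - 1) * (2 * (q ^ (n + 1) * (q ^ (n + 1) - 1) / 2)) * (q + 1) + BE q (n + 1) * (2 * (q + 1)) := by
        rw [BE]; ring
      rw [h2, h1, ih]
      obtain ⟨p, rfl⟩ : ∃ p, q = p + 1 := ⟨q - 1, by omega⟩
      have hP1 : (p + 1) ^ (n + 1 + 1) = (p + 1) * (p + 1) ^ (n + 1) := by rw [pow_succ]; ring
      have hP2 : (p + 1) ^ (n + 1) = (p + 1) * (p + 1) ^ n := by rw [pow_succ]; ring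
      obtain ⟨s, hs⟩ : ∃ s, (p + 1) ^ n = s + 1 := ⟨(p + 1) ^ n - 1, by
        have : 0 < (p + 1) ^ n := by positivity
        omega⟩
      rw [hP1, hP2, hs]
      have e1 : (p + 1) * (s + 1) - 1 = p * s + p + s := by
        have : (p + 1) * (s + 1) = p * s + p + s + 1 := by ring
        omega
      have e2 : (p + 1) * (s + 1) - (p + 1) = (p + 1) * s := by
        have : (p + 1) * (s + 1) = (p + 1) * s + (p + 1) := by ring
        omega
      have e3 : (p + 1) * ((p + 1) * (s + 1)) - 1 = p * p * s + p * p + 2 * p * s + 2 * p + s := by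
        have : (p + 1) * ((p + 1) * (s + 1)) = p * p * s + p * p + 2 * p * s + 2 * p + s + 1 := by ring
        omega
      have e4 : (p + 1) * ((p + 1) * (s + 1)) - (p + 1) = (p + 1) * (p * s + p + s) := by
        have : (p + 1) * ((p + 1) * (s + 1)) = (p + 1) * (p * s + p + s) + (p + 1) := by ring
        omega
      rw [e1, e2, e3, e4, Nat.add_sub_cancel]
      ring
  rw [← h n, Nat.mul_div_cancel _ (by positivity)]

end Cfsg.Agent.LSSp
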