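import Cfsg.Agent.LSSp.Rep
import Cfsg.Agent.LSU.Irr

/-!
Nontrivial representations of symplectic groups are nontrivial on transvections.
-/

set_option autoImplicit false
set_option linter.unusedSectionVars false

namespace Cfsg.Agent.LSSp

open Module Matrix Cfsg.Agent.ClassSp Cfsg.Agent.H39 Cfsg.Agent.LSU

variable {l : Type*} [Fintype l] [DecidableEq l] {F : Type*} [Field F] [Fintype F]
variable {V : Type*} [AddCommGroup V] [Module ℂ V]

theorem exists_nt (ρ : Representation ℂ (symplecticGroup l F) V) (h : ∃ g v, ρ g v ≠ v) :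
    ∃ u, wt (TS ρ u) 0 ≠ ⊤ := by
  by_contra hcon
  push Not at hcon
  obtain ⟨g, v, hgv⟩ := h
  apply hgv
  have hTT : tvGroup l F ≤ MonoidHom.ker ρ := by
    rw [tvGroup, Subgroup.closure_le]
    rintro _ ⟨w, c, rfl⟩
    rw [SetLike.mem_coe, MonoidHom.mem_ker]
    exact LinearMap.ext fun x => (wt_zero_top_iff ρ w).1 (hcon w) c x
  rw [tvGroup_eq_top] at hTT
  have h1 : ρ g = 1 := hTT (Subgroup.mem_top g)
  rw [h1]; rfl

end Cfsg.Agent.LSSp
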