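import Cfsg.Agent.LSSp.Even
import Cfsg.Agent.LSSL.Wt
import Cfsg.Agent.H41.SL2Fin

/-!
Lower bound for degrees of representations of symplectic groups in odd characteristic.
-/

set_option autoImplicit false
set_option linter.unusedSectionVars false

namespace Cfsg.Agent.LSSp

open Module Matrix Cfsg.Agent.ClassSp Cfsg.Agent.H39 Cfsg.Agent.LSU

universe v

variable {k : Type*} [Fintype k] [DecidableEq k] {F : Type*} [Field F] [Fintype F]
variable {V : Type*} [AddCommGroup V] [Module ℂ V]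

variable (ρ : Representation ℂ (symplecticGroup (Option k) F) V) (ψ : AddChar F ℂ)

/-- Heisenberg operators -/
noncomputable def HH (w : k ⊕ k → F) : wt (TS ρ (e0 k F)) ψ →ₗ[ℂ] wt (TS ρ (e0 k F)) ψ :=
  rW ρ ψ (ee (e0 k F) (ex 0 0 w)) (ac_ee_e0 w)

theorem coe_HH (w : k ⊕ k → F) (m : wt (TS ρ (e0 k F)) ψ) :
    ((HH ρ ψ w m : wt (TS ρ (e0 k F)) ψ) : V) = ρ (ee (e0 k F) (ex 0 0 w)) m := rfl

theorem HH_mul (w w' : k ⊕ k → F) : HH ρ ψ w * HH ρ ψ w' = ψ (sf w' w) • HH ρ ψ (w + w') := by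
  ext m
  rw [Module.End.mul_apply, coe_HH, coe_HH, LinearMap.smul_apply, Submodule.coe_smul, coe_HH,
    ← Module.End.mul_apply, ← map_mul ρ, ee_mul (sf_e0_ex w) (sf_e0_ex w'), sf_ex, map_mul, Module.End.mul_apply, ex_add']
  have h1 : ρ (ee (e0 k F) (ex 0 0 w + ex 0 0 w')) m ∈ wt (TS ρ (e0 k F)) ψ := by
    rw [← ex_add']
    exact wt_of_fix ρ (ac_ee_e0 _) ψ m.2
  have h2 := h1 (sf w' w)
  rw [TS] at h2
  have h3 : (0 : F) * 0 - 0 * 0 + sf w' w = sf w' w := by ring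
  rw [h3, h2]

theorem HH_zero : HH ρ ψ (0 : k ⊕ k → F) = 1 := by
  ext m
  rw [coe_HH, ex_zero, ee_zero, map_one]; rfl

theorem HH_neg (w : k ⊕ k → F) : HH ρ ψ w * HH ρ ψ (-w) = 1 := by
  rw [HH_mul, sf_neg_left, sf_self, neg_zero, AddChar.map_zero_eq_one, one_smul, add_neg_cancel, HH_zero]

theorem HH_neg' (w : k ⊕ k → F) : HH ρ ψ (-w) * HH ρ ψ w = 1 := by
  have := HH_neg ρ ψ (-w)
  rwa [neg_neg] at this

theorem HH_comm (w w' : k ⊕ k → F) : HH ρ ψ w * HH ρ ψ w' = ψ (2 * sf w' w) • (HH ρ ψ w' * HH ρ ψ w) := by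
  rw [HH_mul, HH_mul, smul_smul, ← AddChar.map_add_eq_mul, add_comm w']
  congr 2
  rw [sf_swap w w']; ring

theorem wt_dim_odd (h2 : (2 : F) ≠ 0) (hψ : ψ ≠ 0) [FiniteDimensional ℂ V] (hne : wt (TS ρ (e0 k F)) ψ ≠ ⊥) :
    Fintype.card F ^ Fintype.card k ≤ finrank ℂ (wt (TS ρ (e0 k F)) ψ) := by
  have hprim := AddChar.IsPrimitive.of_ne_one (ψ := ψ) (by rwa [AddChar.one_eq_zero])
  have hfin : finrank ℂ (wt (TS ρ (e0 k F)) ψ) ≠ 0 := fun h => hne (Submodule.finrank_eq_zero.1 h)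
  have htr : ∀ d : k ⊕ k → F, d ≠ 0 → LinearMap.trace ℂ _ (HH ρ ψ d) = 0 := by
    intro d hd
    obtain ⟨u, hu⟩ := exists_sf_ne_zero hd
    have hu' : (2 : F) * sf d u ≠ 0 := by
      refine mul_ne_zero h2 ?_
      rw [sf_swap]; exact neg_ne_zero.2 hu
    obtain ⟨y, hy⟩ := exists_ne_of_ne_zero hψ
    -- scale
    have h3 : ψ (2 * sf d ((y * (2 * sf d u)⁻¹) • u)) ≠ 1 := by
      rw [sf_smul_right]
      have : (2 : F) * (y * (2 * sf d u)⁻¹ * sf d u) = y * ((2 * sf d u)⁻¹ * (2 * sf d u)) := by ring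
      rw [this, inv_mul_cancel₀ hu', mul_one]
      exact hy
    exact trace_eq_zero_of_twist (HH ρ ψ ((y * (2 * sf d u)⁻¹) • u)) (HH ρ ψ (-((y * (2 * sf d u)⁻¹) • u)))
      (HH ρ ψ d) _ (HH_neg ρ ψ _) (HH_neg' ρ ψ _) h3 (HH_comm ρ ψ _ _)
  have h1 := card_le_sq_of_trace (X := k ⊕ k → F) (fun w => HH ρ ψ w) (fun w => HH ρ ψ (-w))
    (fun a b hab => by
      rw [HH_mul, map_smul, htr _ (by rwa [← sub_eq_add_neg, sub_ne_zero]), smul_zero])
    (fun a => by
      rw [HH_neg, LinearMap.trace_one]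
      exact_mod_cast hfin)
  rw [card_fun] at h1
  exact (Nat.pow_le_pow_iff_left (by norm_num)).1 h1

omit [Fintype k] [DecidableEq k] in
/-- counting weights -/
theorem finrank_ge' {A : Type*} [AddCommGroup A] [Fintype A] [FiniteDimensional ℂ V] (U : A → (V →ₗ[ℂ] V))
    (h0 : ∀ v, U 0 v = v) (hU : ∀ a b v, U (a + b) v = U a (U b v)) (S : Finset (AddChar A ℂ)) (hS : (0 : AddChar A ℂ) ∉ S)
    (D : ℕ) (hD : ∀ φ ∈ S, D ≤ finrank ℂ (wt U φ)) : finrank ℂ (wt U 0) + S.card * D ≤ finrank ℂ V := by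
  classical
  rw [finrank_eq_sum_wt U h0 hU]
  calc finrank ℂ (wt U 0) + S.card * D = finrank ℂ (wt U 0) + ∑ _φ ∈ S, D := by rw [Finset.sum_const, smul_eq_mul]
    _ ≤ finrank ℂ (wt U 0) + ∑ φ ∈ S, finrank ℂ (wt U φ) := Nat.add_le_add_left (Finset.sum_le_sum hD) _
    _ = ∑ φ ∈ insert 0 S, finrank ℂ (wt U φ) := by rw [Finset.sum_insert hS]
    _ ≤ ∑ φ, finrank ℂ (wt U φ) := Finset.sum_le_sum_of_subset (Finset.subset_univ _)

open Classical in
theorem card_squares (F : Type*) [Field F] [Fintype F] :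
    Fintype.card F - 1 ≤ 2 * ((Finset.univ.erase (0 : F)).image (fun a => a ^ 2)).card := by
  have h1 := Finset.card_le_mul_card_image (f := fun a : F => a ^ 2) (Finset.univ.erase (0 : F)) 2 (by
    intro b _
    have h2 : (Finset.univ.erase (0 : F)).filter (fun a => a ^ 2 = b) ⊆ (Polynomial.nthRoots 2 b).toFinset := by
      intro a ha
      rw [Multiset.mem_toFinset, Polynomial.mem_nthRoots (by norm_num)]
      exact (Finset.mem_filter.1 ha).2
    exact (Finset.card_le_card h2).trans ((Multiset.toFinset_card_le _).trans (Polynomial.card_nthRoots 2 b)))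
  rwa [Finset.card_erase_of_mem (Finset.mem_univ _), Finset.card_univ] at h1

/-- first alternative of the induction step -/
theorem step_half (h2 : (2 : F) ≠ 0) [FiniteDimensional ℂ V] (hnt : wt (TS ρ (e0 k F)) 0 ≠ ⊤) :
    2 * finrank ℂ (wt (TS ρ (e0 k F)) 0) + (Fintype.card F - 1) * Fintype.card F ^ Fintype.card k ≤
      2 * finrank ℂ V := by
  classical
  have hnt1 : ∃ a v, TS ρ (e0 k F) a v ≠ v := by
    by_contra hcon
    push Not at hcon
    exact hnt ((wt_zero_top_iff ρ _).2 hcon)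
  obtain ⟨ψ, hψ, hne⟩ := exists_wt_ne_bot (TS ρ (e0 k F)) (TS_zero ρ _) (TS_add ρ _) hnt1
  have hprim := AddChar.IsPrimitive.of_ne_one (ψ := ψ) (by rwa [AddChar.one_eq_zero])
  have hinj := AddChar.to_mulShift_inj_of_isPrimitive hprim
  set Sq := (Finset.univ.erase (0 : F)).image (fun a => a ^ 2) with hSq
  have hsh : ∀ c : F, c ≠ 0 → ψ.mulShift c ≠ 0 := fun c hc => by
    have := hprim hc
    rwa [AddChar.one_eq_zero] at this
  have hSq0 : ∀ c ∈ Sq, c ≠ 0 ∧ IsSquare c := by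
    intro c hc
    obtain ⟨a, ha, rfl⟩ := Finset.mem_image.1 hc
    exact ⟨pow_ne_zero _ (Finset.ne_of_mem_erase ha), ⟨a, pow_two a⟩⟩
  have h1 := finrank_ge' (TS ρ (e0 k F)) (TS_zero ρ _) (TS_add ρ _) (Sq.image fun c => ψ.mulShift c) (by
    intro h
    obtain ⟨c, hc, h0⟩ := Finset.mem_image.1 h
    exact hsh c (hSq0 c hc).1 h0) (Fintype.card F ^ Fintype.card k) (by
    intro φ hφ
    obtain ⟨c, hc, rfl⟩ := Finset.mem_image.1 hφ
    exact wt_dim_odd ρ _ h2 (hsh c (hSq0 c hc).1) (wt_shift_ne_bot ρ e0_ne hne (hSq0 c hc).1 (hSq0 c hc).2))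
  rw [Finset.card_image_of_injective _ hinj] at h1
  have h3 := card_squares F
  rw [← hSq] at h3
  calc 2 * finrank ℂ (wt (TS ρ (e0 k F)) 0) + (Fintype.card F - 1) * Fintype.card F ^ Fintype.card k
      ≤ 2 * finrank ℂ (wt (TS ρ (e0 k F)) 0) + (2 * Sq.card) * Fintype.card F ^ Fintype.card k :=
        Nat.add_le_add_left (Nat.mul_le_mul_right _ h3) _
    _ = 2 * (finrank ℂ (wt (TS ρ (e0 k F)) 0) + Sq.card * Fintype.card F ^ Fintype.card k) := by ring
    _ ≤ 2 * finrank ℂ V := Nat.mul_le_mul_left _ h1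

/-- all nontrivial characters occur -/
theorem step_full (h2 : (2 : F) ≠ 0) [FiniteDimensional ℂ V]
    (hall : ∀ φ : AddChar F ℂ, φ ≠ 0 → wt (TS ρ (e0 k F)) φ ≠ ⊥) :
    (Fintype.card F - 1) * Fintype.card F ^ Fintype.card k ≤ finrank ℂ V := by
  classical
  have h1 := finrank_ge' (TS ρ (e0 k F)) (TS_zero ρ _) (TS_add ρ _) (Finset.univ.erase (0 : AddChar F ℂ)) (by simp)
    (Fintype.card F ^ Fintype.card k) (fun φ hφ => wt_dim_odd ρ φ h2 (Finset.ne_of_mem_erase hφ)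
      (hall φ (Finset.ne_of_mem_erase hφ)))
  rw [Finset.card_erase_of_mem (Finset.mem_univ _), Finset.card_univ, AddChar.card_eq] at h1
  omega

/-- transvections with centre in a totally isotropic plane -/
theorem tv_plane {l : Type*} [Fintype l] [DecidableEq l] {u w : l ⊕ l → F} (h : sf u w = 0) (x y c : F) :
    tv (x • u + y • w) c = tv u (x ^ 2 * c) * (tv w (y ^ 2 * c) * ee u ((x * y * c) • w)) := by
  have h' : sf w u = 0 := by rw [sf_swap, h, neg_zero]
  have h3 : sf u ((x * y * c) • w) = 0 := by rw [sf_smul_right, h, mul_zero]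
  apply ac_ext; intro z
  simp only [ac_mul, ac_tv, ac_ee h3, sf_add_left, sf_add_right, sf_smul_left, sf_smul_right, sf_self, h, h']
  module

/-- the action of the group of the plane -/
noncomputable def PL (w : k ⊕ k → F) (x : F × F × F) : V →ₗ[ℂ] V :=
  ρ (tv (e0 k F) x.1 * (tv (ex 0 0 w) x.2.1 * ee (e0 k F) (x.2.2 • ex 0 0 w)))

theorem PL_zero (w : k ⊕ k → F) (v : V) : PL ρ w 0 v = v := by
  change ρ (tv (e0 k F) 0 * (tv (ex 0 0 w) 0 * ee (e0 k F) ((0 : F) • ex 0 0 w))) v = v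
  rw [tv_zero, tv_zero, zero_smul, ee_zero, one_mul, one_mul, map_one]; rfl

theorem PL_add (w : k ⊕ k → F) (x y : F × F × F) (v : V) : PL ρ w (x + y) v = PL ρ w x (PL ρ w y v) := by
  rw [PL, PL, PL, ← Module.End.mul_apply, ← map_mul]
  congr 2
  have h := sf_e0_ex (F := F) w
  have h' := sf_ex_e0 (F := F) w
  have h3 : ∀ c : F, sf (e0 k F) (c • ex 0 0 w) = 0 := fun c => by rw [sf_smul_right, h, mul_zero]
  apply ac_ext; intro z
  simp only [ac_mul, ac_tv, ac_ee (h3 _), sf_add_left, sf_add_right, sf_smul_left, sf_smul_right, sf_self, h, h',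
    Prod.fst_add, Prod.snd_add]
  module

/-- second alternative -/
theorem all_of_le (h2 : (2 : F) ≠ 0) [FiniteDimensional ℂ V] (hnt : wt (TS ρ (e0 k F)) 0 ≠ ⊤)
    {w : k ⊕ k → F} (hw : w ≠ 0)
    (hle : ∀ u u' : Option k ⊕ Option k → F, u ≠ 0 → u' ≠ 0 → sf u u' = 0 → wt (TS ρ u) 0 ≤ wt (TS ρ u') 0) :
    ∀ φ : AddChar F ℂ, φ ≠ 0 → wt (TS ρ (e0 k F)) φ ≠ ⊥ := by
  classical
  have hnt1 : ∃ a v, PL ρ w a v ≠ v := by
    by_contra hcon
    push Not at hcon
    apply hnt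
    rw [wt_zero_top_iff]
    intro c v
    have := hcon (c, 0, 0) v
    rw [PL, tv_zero, zero_smul, ee_zero, one_mul, mul_one] at this
    exact this
  obtain ⟨Φ, hΦ0, hΦ⟩ := exists_wt_ne_bot (PL ρ w) (PL_zero ρ w) (PL_add ρ w) hnt1
  obtain ⟨ψ, hψ⟩ : ∃ ψ : AddChar F ℂ, ψ ≠ 0 := by
    haveI : Nontrivial (AddChar F ℂ) := by
      rw [← Fintype.one_lt_card_iff_nontrivial, AddChar.card_eq]
      exact Fintype.one_lt_card
    exact exists_ne 0
  have hprim := AddChar.IsPrimitive.of_ne_one (ψ := ψ) (by rwa [AddChar.one_eq_zero])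
  obtain ⟨lin, hlin⟩ := LSSL.exists_linear hψ Φ
  set α := lin (1, 0, 0) with hα
  set β := lin (0, 1, 0) with hβ
  set γ := lin (0, 0, 1) with hγ
  have hval : ∀ a b c : F, Φ (a, b, c) = ψ (α * a + β * b + γ * c) := by
    intro a b c
    rw [hlin]
    congr 1
    have e : ((a, b, c) : F × F × F) = a • (1, 0, 0) + b • (0, 1, 0) + c • (0, 0, 1) := by simp
    rw [e, map_add, map_add, map_smul, map_smul, map_smul, ← hα, ← hβ, ← hγ]
    simp only [smul_eq_mul]; ring
  -- the weight vector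
  obtain ⟨v, hv, hv0⟩ := (Submodule.ne_bot_iff _).1 hΦ
  have hTS : ∀ x y c : F, TS ρ (x • e0 k F + y • ex 0 0 w) c v = ψ (c * (α * x ^ 2 + γ * x * y + β * y ^ 2)) • v := by
    intro x y c
    have h1 := hv (x ^ 2 * c, y ^ 2 * c, x * y * c)
    rw [hval, PL, ← tv_plane (sf_e0_ex w)] at h1
    rw [TS, h1]
    congr 2; ring
  have huw0 : ∀ x y : F, (x ≠ 0 ∨ y ≠ 0) → x • e0 k F + y • ex 0 0 w ≠ 0 := by
    intro x y hxy h0
    have e1 := congrFun h0 (Sum.inl none)
    have e2 := congrArg res h0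
    rw [res_add, res_smul, res_smul, res_ex, e0, res_ex, smul_zero, zero_add] at e2
    have e3 : x = 0 := by simpa [e0] using e1
    rcases hxy with h | h
    · exact h e3
    · exact hw ((smul_eq_zero.1 e2).resolve_left h)
  have hperp : ∀ x y x' y' : F, sf (x • e0 k F + y • ex 0 0 w) (x' • e0 k F + y' • ex 0 0 w) = 0 := by
    intro x y x' y'
    simp only [sf_add_left, sf_add_right, sf_smul_left, sf_smul_right, sf_self, sf_e0_ex, sf_ex_e0, mul_zero, add_zero]
  -- anisotropy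
  have haniso : ∀ x y : F, (x ≠ 0 ∨ y ≠ 0) → α * x ^ 2 + γ * x * y + β * y ^ 2 ≠ 0 := by
    intro x y hxy h0
    have hv1 : v ∈ wt (TS ρ (x • e0 k F + y • ex 0 0 w)) 0 := by
      rw [mem_wt_zero]
      intro c
      rw [hTS, h0, mul_zero, AddChar.map_zero_eq_one, one_smul]
    have hall : ∀ x' y' : F, α * x' ^ 2 + γ * x' * y' + β * y' ^ 2 = 0 := by
      intro x' y'
      by_cases hxy' : x' ≠ 0 ∨ y' ≠ 0
      · have hv2 := hle _ _ (huw0 x y hxy) (huw0 x' y' hxy') (hperp x y x' y') hv1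
        by_contra hne
        obtain ⟨c, hc⟩ := exists_ne_of_ne_zero hψ
        have h3 := mem_wt_zero.1 hv2 (c * (α * x' ^ 2 + γ * x' * y' + β * y' ^ 2)⁻¹)
        rw [hTS, inv_mul_cancel_right₀ hne] at h3
        have h4 : (ψ c - 1) • v = 0 := by rw [sub_smul, one_smul, h3, sub_self]
        exact hv0 ((smul_eq_zero.1 h4).resolve_left (sub_ne_zero.2 hc))
      · push Not at hxy'
        rw [hxy'.1, hxy'.2]; ring
    have hα0 : α = 0 := by have := hall 1 0; simpa using this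
    have hβ0 : β = 0 := by have := hall 0 1; simpa using this
    have hγ0 : γ = 0 := by
      have := hall 1 1
      rw [hα0, hβ0] at this
      simpa using this
    apply hΦ0
    ext x
    obtain ⟨a, b, c⟩ := x
    rw [hval, hα0, hβ0, hγ0]
    simp
  have hdisc : γ ^ 2 - 4 * α * β ≠ 0 := by
    intro h0
    have hα0 : α ≠ 0 := by
      have := haniso 1 0 (Or.inl one_ne_zero)
      simpa using this
    have h4 := haniso (-γ) (2 * α) (Or.inr (mul_ne_zero h2 hα0))
    apply h4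
    linear_combination (-α) * h0
  intro φ hφ
  obtain ⟨b, hb⟩ := exists_shift hψ φ
  have hb0 : b ≠ 0 := by
    rintro rfl
    apply hφ
    ext x
    rw [hb, zero_mul, AddChar.map_zero_eq_one, AddChar.zero_apply]
  obtain ⟨x, y, hxy⟩ := H41.exists_binary_eq α γ β b hdisc
  have hxy0 : x ≠ 0 ∨ y ≠ 0 := by
    by_contra hcon
    push Not at hcon
    apply hb0
    rw [← hxy, hcon.1, hcon.2]; ring
  obtain ⟨g, _, hg⟩ := exists_mem_tvGroup (huw0 x y hxy0) (e0_ne (k := k) (F := F))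
  have hg : ac g (x • e0 k F + y • ex 0 0 w) = e0 k F := hg
  have hv1 : v ∈ wt (TS ρ (x • e0 k F + y • ex 0 0 w)) φ := by
    intro c
    rw [hTS, hxy, hb, mul_comm]
  have hv2 := (wt_conj ρ _ g φ).2 hv1
  rw [hg] at hv2
  intro hbot
  rw [hbot, Submodule.mem_bot] at hv2
  apply hv0
  rw [← ρ_inv_apply ρ g v, hv2, map_zero]

omit ρ ψ

/-- nontriviality is inherited by the standard transvection group -/
theorem nt_e0' {ρ : Representation ℂ (symplecticGroup (Option k) F) V} {u : Option k ⊕ Option k → F}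
    (h : wt (TS ρ u) 0 ≠ ⊤) : wt (TS ρ (e0 k F)) 0 ≠ ⊤ := by
  intro htop
  apply h
  rw [wt_zero_top_iff] at htop ⊢
  intro c v
  by_cases hu : u = 0
  · rw [TS, hu]
    have : tv (0 : Option k ⊕ Option k → F) c = 1 := by
      apply ac_ext; intro x
      rw [ac_tv, smul_zero, add_zero, ac_one]
    rw [this, map_one]; rfl
  · obtain ⟨g, _, hg⟩ := exists_mem_tvGroup (e0_ne (k := k) (F := F)) hu
    have hg : ac g (e0 k F) = u := hg
    have h1 := TS_conj ρ (e0 k F) g c (ρ g⁻¹ v)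
    rw [hg, ρ_apply_inv, htop, ρ_apply_inv] at h1
    exact h1

/-- from the standard vectors to all orthogonal pairs -/
theorem le_all (ρ : Representation ℂ (symplecticGroup (Option k) F) V)
    (hex : ∀ w : k ⊕ k → F, w ≠ 0 → wt (TS ρ (e0 k F)) 0 ≤ wt (TS ρ (ex 0 0 w)) 0) :
    ∀ u u' : Option k ⊕ Option k → F, u ≠ 0 → u' ≠ 0 → sf u u' = 0 → wt (TS ρ u) 0 ≤ wt (TS ρ u') 0 := by
  have h1 : ∀ u' : Option k ⊕ Option k → F, u' ≠ 0 → sf (e0 k F) u' = 0 →
      wt (TS ρ (e0 k F)) 0 ≤ wt (TS ρ u') 0 := by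
    intro u' hu' hsf
    rw [sf_e0] at hsf
    have e : u' = ex (u' (Sum.inl none)) 0 (res u') := by
      conv_lhs => rw [← ex_res u', hsf]
    set a := u' (Sum.inl none) with ha
    set w := res u' with hw
    have e2 : u' = a • e0 k F + ex 0 0 w := by
      rw [e, e0, ← ex_smul, ← ex_add]
      simp
    by_cases hw0 : w = 0
    · have ha0 : a ≠ 0 := by
        intro h0
        apply hu'
        rw [e2, h0, hw0, zero_smul, zero_add, ex_zero]
      rw [e2, hw0, ex_zero, add_zero, wt_zero_smul ρ _ ha0]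
    · obtain ⟨z₀, hz₀⟩ := exists_sf_ne_zero hw0
      have hz₀' : sf w z₀ ≠ 0 := by rw [sf_swap]; exact neg_ne_zero.2 hz₀
      set z : k ⊕ k → F := (a * (sf w z₀)⁻¹) • z₀ with hz
      have hwz : sf w z = a := by rw [hz, sf_smul_right, inv_mul_cancel_right₀ hz₀']
      set g := ee (e0 k F) (ex 0 0 z) with hg
      have hge : ac g (e0 k F) = e0 k F := ac_ee_e0 z
      have hgw : ac g (ex 0 0 w) = u' := by
        rw [hg, ac_ee (sf_e0_ex z), sf_ex_e0, zero_smul, add_zero, sf_ex, hwz, e2, add_comm]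
        simp
      intro v hv
      have h2 : ρ g⁻¹ v ∈ wt (TS ρ (e0 k F)) 0 := wt_of_fix ρ (ac_inv_fix hge) 0 hv
      have h3 := hex w hw0 h2
      have h4 := (wt_conj ρ (ex 0 0 w) g 0).2 h3
      rwa [hgw, ρ_apply_inv] at h4
  intro u u' hu hu' hsf v hv
  obtain ⟨g, _, hg⟩ := exists_mem_tvGroup hu (e0_ne (k := k) (F := F))
  have hg : ac g u = e0 k F := hg
  have h2 := (wt_conj ρ u g 0).2 hv
  rw [hg] at h2
  have h3 := h1 (ac g u') (ac_ne_zero hu') (by rw [← hg, sf_ac, hsf]) h2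
  exact (wt_conj ρ u' g 0).1 h3

theorem bound_odd (h2 : (2 : F) ≠ 0) (n : ℕ) : ∀ (V : Type v) [AddCommGroup V] [Module ℂ V] [FiniteDimensional ℂ V]
    (ρ : Representation ℂ (symplecticGroup (Fin n) F) V) (u : Fin n ⊕ Fin n → F), wt (TS ρ u) 0 ≠ ⊤ →
    Fintype.card F ^ n ≤ 2 * finrank ℂ V + 1 := by
  induction n with
  | zero => intros; rw [pow_zero]; omega
  | succ m ih =>
    intro V _ _ _ ρ u hu
    let e : Option (Fin m) ≃ Fin (m + 1) := (finSuccEquiv m).symm
    let ρ' : Representation ℂ (symplecticGroup (Option (Fin m)) F) V := ρ.comp (reindexSp e).toMonoidHom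
    have hρ' : ∀ g, ρ' g = ρ (reindexSp e g) := fun _ => rfl
    have hu' : wt (TS ρ' (u ∘ (e.sumCongr e))) 0 ≠ ⊤ := by
      intro htop
      apply hu
      rw [wt_zero_top_iff] at htop ⊢
      intro c v
      have h1 := htop c v
      rw [TS, hρ', reindexSp_tv] at h1
      have h2 : (u ∘ (e.sumCongr e)) ∘ (e.symm.sumCongr e.symm) = u := by
        ext x; simp
      rw [h2] at h1
      exact h1
    have hnt := nt_e0' hu'
    have hq : 2 ≤ Fintype.card F := Fintype.one_lt_card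
    obtain ⟨p, hp⟩ : ∃ p, Fintype.card F = p + 1 := ⟨Fintype.card F - 1, by omega⟩
    have hstep := step_half ρ' h2 hnt
    rw [Fintype.card_fin] at hstep
    by_cases hex : ∃ w : Fin m ⊕ Fin m → F, w ≠ 0 ∧ ¬ wt (TS ρ' (e0 (Fin m) F)) 0 ≤ wt (TS ρ' (ex 0 0 w)) 0
    · obtain ⟨w, hw0, hw⟩ := hex
      have h3 := ih _ (subRep ρ') w (by
        intro htop
        apply hw
        intro v hv
        rw [mem_wt_zero]
        intro c
        have := (wt_zero_top_iff _ _).1 htop c ⟨v, hv⟩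
        have h3 := congrArg Subtype.val this
        rw [coe_TS_subRep] at h3
        exact h3)
      rw [hp, Nat.add_sub_cancel] at hstep
      rw [hp] at h3 ⊢
      rw [pow_succ]
      nlinarith
    · push Not at hex
      rcases Nat.eq_zero_or_pos m with hm | hm
      · subst hm
        rw [pow_zero, mul_one] at hstep
        rw [zero_add, pow_one]
        omega
      · -- all characters
        let w : Fin m ⊕ Fin m → F := Pi.single (Sum.inl ⟨0, hm⟩) 1
        have hw : w ≠ 0 := by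
          intro h0
          have := congrFun h0 (Sum.inl ⟨0, hm⟩)
          simp [w] at this
        have hle := le_all ρ' hex
        have h4 := step_full ρ' h2 (all_of_le ρ' h2 hnt hw hle)
        rw [Fintype.card_fin, hp, Nat.add_sub_cancel] at h4
        rw [hp, pow_succ]
        have h5 : 1 ≤ p := by omega
        nlinarith [Nat.mul_le_mul_right ((p + 1) ^ m) h5]

end Cfsg.Agent.LSSp
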