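import Cfsg.Agent.LSU.Chars
import Cfsg.Agent.ClassSp.Order

/-!
Weights of transvection groups in complex representations of symplectic groups.
-/

set_option autoImplicit false
set_option linter.unusedSectionVars false

namespace Cfsg.Agent.LSSp

open Module Matrix Cfsg.Agent.ClassSp Cfsg.Agent.H39 Cfsg.Agent.LSU

variable {l : Type*} [Fintype l] [DecidableEq l] {F : Type*} [Field F] [Fintype F]
variable {V : Type*} [AddCommGroup V] [Module ℂ V]

/-- the action of a group element on vectors -/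
noncomputable def ac (g : symplecticGroup l F) (v : l ⊕ l → F) : l ⊕ l → F :=
  (g : Matrix (l ⊕ l) (l ⊕ l) F) *ᵥ v

theorem ac_mul (g h : symplecticGroup l F) (v : l ⊕ l → F) : ac (g * h) v = ac g (ac h v) := mul_mulVec g h v
theorem ac_one (v : l ⊕ l → F) : ac (1 : symplecticGroup l F) v = v := one_mulVec' v
theorem ac_inv_ac (g : symplecticGroup l F) (v : l ⊕ l → F) : ac g⁻¹ (ac g v) = v := inv_mulVec_mulVec g v
theorem ac_ac_inv (g : symplecticGroup l F) (v : l ⊕ l → F) : ac g (ac g⁻¹ v) = v := mulVec_inv_mulVec g v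
theorem ac_smul (g : symplecticGroup l F) (a : F) (v : l ⊕ l → F) : ac g (a • v) = a • ac g v := Matrix.mulVec_smul _ _ _
theorem ac_add (g : symplecticGroup l F) (u v : l ⊕ l → F) : ac g (u + v) = ac g u + ac g v := Matrix.mulVec_add _ _ _
theorem ac_zero (g : symplecticGroup l F) : ac g (0 : l ⊕ l → F) = 0 := Matrix.mulVec_zero _
theorem sf_ac (g : symplecticGroup l F) (u v : l ⊕ l → F) : sf (ac g u) (ac g v) = sf u v := sf_mulVec g u v
theorem ac_tv (w : l ⊕ l → F) (c : F) (v : l ⊕ l → F) : ac (tv w c) v = v + (c * sf v w) • w := tv_mulVec w c v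
theorem ac_ext {g h : symplecticGroup l F} (H : ∀ v, ac g v = ac h v) : g = h := ext_vec H
theorem ac_inv_fix {g : symplecticGroup l F} {u : l ⊕ l → F} (h : ac g u = u) : ac g⁻¹ u = u := by
  have := ac_inv_ac g u
  rwa [h] at this
theorem ac_ne_zero {g : symplecticGroup l F} {u : l ⊕ l → F} (hu : u ≠ 0) : ac g u ≠ 0 := by
  intro h
  apply hu
  rw [← ac_inv_ac g u, h, ac_zero]

/-- Eichler elements -/
noncomputable def ee (u w : l ⊕ l → F) : symplecticGroup l F := tv (u + w) 1 * (tv u (-1) * tv w (-1))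

theorem ac_ee {u w : l ⊕ l → F} (h : sf u w = 0) (x : l ⊕ l → F) :
    ac (ee u w) x = x + (sf x u) • w + (sf x w) • u := by
  have h' : sf w u = 0 := by rw [sf_swap, h, neg_zero]
  rw [ee, ac_mul, ac_mul, ac_tv, ac_tv, ac_tv]
  simp only [sf_add_left, sf_add_right, sf_smul_left, sf_self, h, h']
  module

theorem ee_mul {u w w' : l ⊕ l → F} (h : sf u w = 0) (h' : sf u w' = 0) :
    ee u w * ee u w' = tv u (sf w' w) * ee u (w + w') := by
  have h1 : sf w u = 0 := by rw [sf_swap, h, neg_zero]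
  have h2 : sf w' u = 0 := by rw [sf_swap, h', neg_zero]
  have h3 : sf u (w + w') = 0 := by rw [sf_add_right, h, h', add_zero]
  apply ac_ext; intro x
  rw [ac_mul, ac_mul, ac_ee h', ac_ee h, ac_ee h3, ac_tv]
  simp only [sf_add_left, sf_add_right, sf_smul_left, sf_self, h, h', h1, h2]
  module

theorem ee_zero (u : l ⊕ l → F) : ee u 0 = 1 := by
  apply ac_ext; intro x
  rw [ac_ee (sf_zero_right u), sf_zero_right, ac_one]
  simp

theorem ee_conj {u w : l ⊕ l → F} (h : sf u w = 0) (g : symplecticGroup l F) :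
    g * ee u w = ee (ac g u) (ac g w) * g := by
  apply ac_ext; intro x
  rw [ac_mul, ac_mul, ac_ee h, ac_ee (by rw [sf_ac, h]), ac_add, ac_add, ac_smul, ac_smul, sf_ac, sf_ac]

theorem tv_conj' (g : symplecticGroup l F) (w : l ⊕ l → F) (c : F) : g * tv w c = tv (ac g w) c * g := by
  rw [ac, ← tv_conj, inv_mul_cancel_right]

/-- action of the transvection group with centre `u` -/
noncomputable def TS (ρ : Representation ℂ (symplecticGroup l F) V) (u : l ⊕ l → F) : F → (V →ₗ[ℂ] V) :=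
  fun c => ρ (tv u c)

variable (ρ : Representation ℂ (symplecticGroup l F) V)

theorem TS_zero (u : l ⊕ l → F) (v : V) : TS ρ u 0 v = v := by
  rw [TS, tv_zero, map_one]; rfl

theorem TS_add (u : l ⊕ l → F) (a b : F) (v : V) : TS ρ u (a + b) v = TS ρ u a (TS ρ u b v) := by
  rw [TS, TS, TS, tv_add, map_mul]; rfl

theorem TS_conj (u : l ⊕ l → F) (g : symplecticGroup l F) (c : F) (v : V) :
    TS ρ (ac g u) c (ρ g v) = ρ g (TS ρ u c v) := by
  have h4 : ρ (tv (ac g u) c) * ρ g = ρ g * ρ (tv u c) := by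
    rw [← map_mul, ← map_mul, tv_conj']
  exact congrArg (fun f : V →ₗ[ℂ] V => f v) h4

theorem TS_smul (u : l ⊕ l → F) (α : F) (c : F) (v : V) : TS ρ (α • u) c v = TS ρ u (α ^ 2 * c) v := by
  rw [TS, TS, tv_smul]

theorem ρ_inv_apply (g : symplecticGroup l F) (v : V) : ρ g⁻¹ (ρ g v) = v := by
  rw [← Module.End.mul_apply, ← map_mul, inv_mul_cancel, map_one]; rfl

theorem ρ_apply_inv (g : symplecticGroup l F) (v : V) : ρ g (ρ g⁻¹ v) = v := by
  rw [← Module.End.mul_apply, ← map_mul, mul_inv_cancel, map_one]; rfl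

theorem ρ_injective (g : symplecticGroup l F) : Function.Injective (ρ g) := by
  intro a b hab
  have := congrArg (ρ g⁻¹) hab
  rwa [ρ_inv_apply, ρ_inv_apply] at this

/-- conjugation moves weight spaces -/
theorem wt_conj (u : l ⊕ l → F) (g : symplecticGroup l F) (ψ : AddChar F ℂ) {v : V} :
    ρ g v ∈ wt (TS ρ (ac g u)) ψ ↔ v ∈ wt (TS ρ u) ψ := by
  rw [mem_wt, mem_wt]
  refine forall_congr' fun c => ?_
  rw [TS_conj ρ, ← map_smul]
  exact (ρ_injective ρ g).eq_iff

theorem wt_smul (u : l ⊕ l → F) {α : F} (hα : α ≠ 0) (ψ : AddChar F ℂ) :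
    wt (TS ρ (α • u)) ψ = wt (TS ρ u) (ψ.mulShift (α ^ 2)⁻¹) := by
  have hα' : α ^ 2 ≠ 0 := pow_ne_zero _ hα
  ext v
  rw [mem_wt, mem_wt]
  constructor
  · intro h c
    have := h ((α ^ 2)⁻¹ * c)
    rw [TS_smul ρ, mul_inv_cancel_left₀ hα'] at this
    rw [this, AddChar.mulShift_apply]
  · intro h c
    have := h (α ^ 2 * c)
    rw [AddChar.mulShift_apply, inv_mul_cancel_left₀ hα'] at this
    rw [TS_smul ρ, this]

theorem wt_zero_smul (u : l ⊕ l → F) {α : F} (hα : α ≠ 0) :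
    wt (TS ρ (α • u)) 0 = wt (TS ρ u) 0 := by
  rw [wt_smul ρ u hα]
  congr 1

/-- commuting transvections / Eichler elements preserve weight spaces -/
theorem wt_of_fix {u : l ⊕ l → F} {g : symplecticGroup l F} (hg : ac g u = u)
    (ψ : AddChar F ℂ) {v : V} (hv : v ∈ wt (TS ρ u) ψ) : ρ g v ∈ wt (TS ρ u) ψ := by
  have := (wt_conj ρ u g ψ (v := v)).2 hv
  rwa [hg] at this

/-- restriction of `ρ g` to a weight space of the transvection group with centre fixed by `g` -/
noncomputable def rW {u : l ⊕ l → F} (ψ : AddChar F ℂ) (g : symplecticGroup l F) (hg : ac g u = u) :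
    wt (TS ρ u) ψ →ₗ[ℂ] wt (TS ρ u) ψ :=
  (ρ g).restrict (fun _ hv => wt_of_fix ρ hg ψ hv)

theorem coe_rW {u : l ⊕ l → F} (ψ : AddChar F ℂ) (g : symplecticGroup l F) (hg : ac g u = u)
    (v : wt (TS ρ u) ψ) : ((rW ρ ψ g hg v : wt (TS ρ u) ψ) : V) = ρ g v := rfl

theorem finrank_wt_zero [FiniteDimensional ℂ V] {u w : l ⊕ l → F} (hu : u ≠ 0) (hw : w ≠ 0) :
    finrank ℂ (wt (TS ρ u) 0) = finrank ℂ (wt (TS ρ w) 0) := by
  obtain ⟨g, _, hg⟩ := exists_mem_tvGroup hu hw
  have hg : ac g u = w := hg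
  let e : wt (TS ρ u) 0 ≃ₗ[ℂ] wt (TS ρ w) 0 :=
    { toFun := fun v => ⟨ρ g v, by
        have := (wt_conj ρ u g 0).2 v.2
        rwa [hg] at this⟩
      invFun := fun v => ⟨ρ g⁻¹ v, by
        have h1 := (wt_conj ρ w g⁻¹ 0).2 v.2
        have h2 : ac g⁻¹ w = u := by rw [← hg, ac_inv_ac]
        rwa [h2] at h1⟩
      left_inv := fun v => Subtype.ext (ρ_inv_apply ρ g v)
      right_inv := fun v => Subtype.ext (ρ_apply_inv ρ g v)
      map_add' := fun a b => Subtype.ext (by
        change ρ g ((a : V) + b) = ρ g a + ρ g b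
        rw [map_add])
      map_smul' := fun c a => Subtype.ext (by
        change ρ g (c • (a : V)) = c • ρ g a
        rw [map_smul]) }
  exact e.finrank_eq

theorem wt_zero_top_iff (u : l ⊕ l → F) : wt (TS ρ u) 0 = ⊤ ↔ ∀ c v, TS ρ u c v = v := by
  rw [eq_top_iff]
  constructor
  · intro h c v
    exact mem_wt_zero.1 (h (Submodule.mem_top (x := v))) c
  · intro h v _
    exact mem_wt_zero.2 fun c => h c v

/-- torus -/
theorem wt_shift_ne_bot {u : l ⊕ l → F} (hu : u ≠ 0) {ψ : AddChar F ℂ} (hψ : wt (TS ρ u) ψ ≠ ⊥) {c : F} (hc : c ≠ 0)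
    (hsq : IsSquare c) : wt (TS ρ u) (ψ.mulShift c) ≠ ⊥ := by
  obtain ⟨α, hα⟩ := hsq
  have hα0 : α ≠ 0 := by rintro rfl; exact hc (by rw [hα, mul_zero])
  obtain ⟨g, _, hg⟩ := exists_mem_tvGroup hu (v := α⁻¹ • u) (smul_ne_zero (inv_ne_zero hα0) hu)
  have hg : ac g u = α⁻¹ • u := hg
  obtain ⟨v, hv, hv0⟩ := (Submodule.ne_bot_iff _).1 hψ
  have h1 := (wt_conj ρ u g ψ).2 hv
  rw [hg, wt_smul ρ u (inv_ne_zero hα0), inv_pow, inv_inv, pow_two, ← hα] at h1
  intro hbot
  rw [hbot, Submodule.mem_bot] at h1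
  apply hv0
  rw [← ρ_inv_apply ρ g v, h1, map_zero]

section sub
variable {k : Type*} [Fintype k] [DecidableEq k]
variable (ρ : Representation ℂ (symplecticGroup (Option k) F) V)

theorem ac_emb_e0 (g : symplecticGroup k F) : ac (emb g) (e0 k F) = e0 k F := by
  rw [ac, e0, emb_mulVec_ex, Matrix.mulVec_zero]

/-- the representation of the smaller group on the fixed space of the standard transvection group -/
noncomputable def subRep : Representation ℂ (symplecticGroup k F) (wt (TS ρ (e0 k F)) 0) where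
  toFun g := rW ρ 0 (emb g) (ac_emb_e0 g)
  map_one' := by
    ext v
    rw [coe_rW, map_one, map_one]; rfl
  map_mul' g h := by
    ext v
    rw [Module.End.mul_apply, coe_rW, coe_rW, coe_rW, map_mul, map_mul]; rfl

theorem coe_subRep (g : symplecticGroup k F) (v : wt (TS ρ (e0 k F)) 0) :
    ((subRep ρ g v : wt (TS ρ (e0 k F)) 0) : V) = ρ (emb g) v := rfl

theorem coe_TS_subRep (w : k ⊕ k → F) (c : F) (v : wt (TS ρ (e0 k F)) 0) :
    ((TS (subRep ρ) w c v : wt (TS ρ (e0 k F)) 0) : V) = TS ρ (ex 0 0 w) c v := by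
  rw [TS, coe_subRep, emb_tv]; rfl

end sub

end Cfsg.Agent.LSSp
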