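import Cfsg.Agent.LSSp.Rep

/-!
Quadratic phase functions on a symplectic space in characteristic two.
-/

set_option autoImplicit false
set_option linter.unusedSectionVars false

namespace Cfsg.Agent.LSSp

open Module Matrix Cfsg.Agent.ClassSp Cfsg.Agent.H39 Cfsg.Agent.LSU

variable {k : Type*} [Fintype k] [DecidableEq k] {F : Type*} [Field F] [Fintype F] [CharP F 2]

/-- quadratic phase function -/
def IsTh (ψ : AddChar F ℂ) (θ : (k ⊕ k → F) → ℂ) : Prop :=
  θ 0 = 1 ∧ ∀ w w', θ (w + w') = θ w * θ w' * ψ (sf w' w)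

theorem psi_sq {A : Type*} [AddCommGroup A] [Module F A] (ψ : AddChar A ℂ) (x : A) : ψ x * ψ x = 1 := by
  rw [← AddChar.map_add_eq_mul]
  have : x + x = 0 := by
    rw [← two_smul F x, CharTwo.two_eq_zero, zero_smul]
  rw [this, AddChar.map_zero_eq_one]

theorem th_sq {ψ : AddChar F ℂ} {θ : (k ⊕ k → F) → ℂ} (h : IsTh ψ θ) (w : k ⊕ k → F) : θ w * θ w = 1 := by
  have h1 := h.2 w w
  have : w + w = 0 := by
    rw [← two_smul F w, CharTwo.two_eq_zero, zero_smul]
  rw [this, h.1, sf_self, AddChar.map_zero_eq_one, mul_one] at h1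
  exact h1.symm

theorem th_eq {ψ : AddChar F ℂ} {θ : (k ⊕ k → F) → ℂ} (h : IsTh ψ θ) (w : k ⊕ k → F) : θ w = 1 ∨ θ w = -1 :=
  mul_self_eq_one_iff.1 (th_sq h w)

/-- the character `v ↦ ψ (sf v u)` -/
def sfChar (ψ : AddChar F ℂ) (u : k ⊕ k → F) : AddChar (k ⊕ k → F) ℂ where
  toFun v := ψ (sf v u)
  map_zero_eq_one' := by rw [sf_zero_left, AddChar.map_zero_eq_one]
  map_add_eq_mul' a b := by rw [sf_add_left, AddChar.map_add_eq_mul]

omit [CharP F 2] in
theorem sfChar_apply (ψ : AddChar F ℂ) (u v : k ⊕ k → F) : sfChar ψ u v = ψ (sf v u) := rfl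

omit [CharP F 2] in
theorem sfChar_injective {ψ : AddChar F ℂ} (hψ : ψ ≠ 0) : Function.Injective (sfChar (k := k) ψ) := by
  intro u u' h
  have hprim := AddChar.IsPrimitive.of_ne_one (ψ := ψ) (by rwa [AddChar.one_eq_zero])
  rw [← sub_eq_zero]
  apply eq_zero_of_sf
  intro v
  by_contra hne
  apply hprim hne
  ext y
  rw [AddChar.mulShift_apply, AddChar.one_apply]
  have h1 := DFunLike.congr_fun h (y • v)
  rw [sfChar_apply, sfChar_apply] at h1
  have h2 : sf v (u - u') * y = sf (y • v) u - sf (y • v) u' := by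
    rw [← sf_sub_right, sf_smul_left, mul_comm]
  rw [h2, AddChar.map_sub_eq_div, h1, div_self]
  intro h0
  have h3 : ψ (sf (y • v) u') * ψ (-(sf (y • v) u')) = 1 := by
    rw [← AddChar.map_add_eq_mul, add_neg_cancel, AddChar.map_zero_eq_one]
  have h4 : ψ (sf (y • v) u') = 0 := h0
  rw [h4, zero_mul] at h3
  exact zero_ne_one h3

omit [CharP F 2] in
open Classical in
theorem sum_psi_sf {ψ : AddChar F ℂ} (hψ : ψ ≠ 0) (u : k ⊕ k → F) :
    ∑ v : k ⊕ k → F, ψ (sf v u) = if u = 0 then (Fintype.card (k ⊕ k → F) : ℂ) else 0 := by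
  classical
  have h1 : ∑ v : k ⊕ k → F, ψ (sf v u) = ∑ v, sfChar ψ u v := rfl
  rw [h1, AddChar.sum_eq_ite]
  have h0 : sfChar (k := k) ψ 0 = 0 := by
    ext v
    rw [sfChar_apply, sf_zero_right, AddChar.map_zero_eq_one, AddChar.zero_apply]
  by_cases hu : u = 0
  · rw [if_pos hu, if_pos (by rw [hu, h0])]
  · rw [if_neg hu, if_neg]
    intro h
    exact hu (sfChar_injective hψ (h.trans h0.symm))

theorem sum_th_sq {ψ : AddChar F ℂ} (hψ : ψ ≠ 0) {θ : (k ⊕ k → F) → ℂ} (h : IsTh ψ θ) :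
    (∑ v, θ v) * (∑ v, θ v) = Fintype.card (k ⊕ k → F) := by
  classical
  rw [Finset.sum_mul_sum]
  have h1 : ∀ v : k ⊕ k → F, ∑ u, θ v * θ u = ∑ u, θ u * ψ (sf v u) := by
    intro v
    rw [← Equiv.sum_comp (Equiv.addLeft v) (fun u => θ v * θ u)]
    refine Finset.sum_congr rfl fun u _ => ?_
    rw [Equiv.coe_addLeft, h.2, ← mul_assoc, ← mul_assoc, th_sq h, one_mul]
    congr 1
    rw [sf_swap, CharTwo.neg_eq]
  rw [Finset.sum_congr rfl fun v _ => h1 v, Finset.sum_comm]
  have h2 : ∀ u : k ⊕ k → F, ∑ v, θ u * ψ (sf v u) = if u = 0 then (Fintype.card (k ⊕ k → F) : ℂ) else 0 := by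
    intro u
    rw [← Finset.mul_sum, sum_psi_sf hψ]
    by_cases hu : u = 0
    · rw [if_pos hu, hu, h.1, one_mul]
    · rw [if_neg hu, mul_zero]
  rw [Finset.sum_congr rfl fun u _ => h2 u, Finset.sum_ite_eq' Finset.univ (0 : k ⊕ k → F) (fun _ => (Fintype.card (k ⊕ k → F) : ℂ)), if_pos (Finset.mem_univ _)]

open Classical in
theorem sum_th {ψ : AddChar F ℂ} {θ : (k ⊕ k → F) → ℂ} (h : IsTh ψ θ) :
    ∑ v, θ v = ((2 * (Finset.univ.filter fun v => θ v = 1).card - Fintype.card (k ⊕ k → F) : ℤ) : ℂ) := by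
  have h1 : ∀ v, θ v = 2 * (if θ v = 1 then 1 else 0) - 1 := by
    intro v
    rcases th_eq h v with h2 | h2
    · rw [if_pos h2, h2]; norm_num
    · rw [if_neg (by rw [h2]; norm_num), h2]; norm_num
  rw [Finset.sum_congr rfl fun v _ => h1 v, Finset.sum_sub_distrib, ← Finset.mul_sum, Finset.sum_boole]
  simp

theorem card_fun (k : Type*) [Fintype k] [DecidableEq k] (F : Type*) [Fintype F] :
    Fintype.card (k ⊕ k → F) = (Fintype.card F ^ Fintype.card k) ^ 2 := by
  rw [Fintype.card_fun, Fintype.card_sum, ← pow_mul]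
  congr 1; ring

open Classical in
theorem card_th {ψ : AddChar F ℂ} (hψ : ψ ≠ 0) {θ : (k ⊕ k → F) → ℂ} (h : IsTh ψ θ) :
    (2 * (Finset.univ.filter fun v => θ v = 1).card - Fintype.card (k ⊕ k → F) : ℤ) = Fintype.card F ^ Fintype.card k ∨
    (2 * (Finset.univ.filter fun v => θ v = 1).card - Fintype.card (k ⊕ k → F) : ℤ) = - Fintype.card F ^ Fintype.card k := by
  have h1 := sum_th_sq hψ h
  rw [sum_th h, card_fun] at h1
  have h2 : (2 * (Finset.univ.filter fun v => θ v = 1).card - Fintype.card (k ⊕ k → F) : ℤ) ^ 2 =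
      (Fintype.card F ^ Fintype.card k : ℤ) ^ 2 := by
    have h3 : (((2 * (Finset.univ.filter fun v => θ v = 1).card - Fintype.card (k ⊕ k → F) : ℤ) ^ 2 : ℤ) : ℂ) =
        (((Fintype.card F ^ Fintype.card k : ℤ) ^ 2 : ℤ) : ℂ) := by
      rw [card_fun]
      push_cast
      push_cast at h1
      linear_combination h1
    exact_mod_cast h3
  exact sq_eq_sq_iff_eq_or_eq_neg.1 h2

open Classical in
theorem card_th_ge {ψ : AddChar F ℂ} (hψ : ψ ≠ 0) {θ : (k ⊕ k → F) → ℂ} (h : IsTh ψ θ) :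
    Fintype.card F ^ Fintype.card k * (Fintype.card F ^ Fintype.card k - 1) / 2 ≤
      (Finset.univ.filter fun v => θ v = 1).card := by
  have h1 := card_th hψ h
  set a := (Finset.univ.filter fun v => θ v = 1).card
  set Q := Fintype.card F ^ Fintype.card k with hQ
  have hQ1 : 1 ≤ Q := Nat.one_le_pow _ _ Fintype.card_pos
  have hc : Fintype.card (k ⊕ k → F) = Q ^ 2 := card_fun k F
  rw [hc] at h1
  obtain ⟨p, hp⟩ : ∃ p, Q = p + 1 := ⟨Q - 1, by omega⟩
  have h2 : Q * (Q - 1) ≤ 2 * a := by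
    have hQ' : ((Fintype.card F : ℤ) ^ Fintype.card k) = (Q : ℤ) := by rw [hQ]; push_cast; rfl
    rw [hQ'] at h1
    rw [hp] at h1 ⊢
    rw [Nat.add_sub_cancel]
    zify
    push_cast at h1
    rcases h1 with h1 | h1
    · nlinarith
    · nlinarith
  omega

/-- existence of singular lines -/
theorem exists_line {ψ : AddChar F ℂ} (hψ : ψ ≠ 0) {θ : (k ⊕ k → F) → ℂ} (h : IsTh ψ θ) (hk : 2 ≤ Fintype.card k) :
    ∃ w : k ⊕ k → F, w ≠ 0 ∧ ∀ y : F, θ (y • w) = 1 := by
  classical
  by_contra hcon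
  push Not at hcon
  -- the characters `y ↦ θ (y • w)`
  let χ : (k ⊕ k → F) → AddChar F ℂ := fun w =>
    { toFun := fun y => θ (y • w)
      map_zero_eq_one' := by rw [zero_smul, h.1]
      map_add_eq_mul' := fun a b => by
        rw [add_smul, h.2, sf_smul_left, sf_smul_right, sf_self, mul_zero, mul_zero, AddChar.map_zero_eq_one, mul_one] }
  have hχ : ∀ w y, χ w y = θ (y • w) := fun _ _ => rfl
  have h1 : ∀ w, ∑ y : F, θ (y • w) = if w = 0 then (Fintype.card F : ℂ) else 0 := by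
    intro w
    have e : ∑ y : F, θ (y • w) = ∑ y, χ w y := rfl
    rw [e, AddChar.sum_eq_ite]
    by_cases hw : w = 0
    · rw [if_pos hw, if_pos]
      ext y
      rw [hχ, hw, smul_zero, h.1, AddChar.zero_apply]
    · rw [if_neg hw, if_neg]
      intro h0
      obtain ⟨y, hy⟩ := hcon w hw
      apply hy
      rw [← hχ, h0, AddChar.zero_apply]
  have h2 : ∑ w : k ⊕ k → F, ∑ y : F, θ (y • w) = Fintype.card F := by
    rw [Finset.sum_congr rfl fun w _ => h1 w, Finset.sum_ite_eq' Finset.univ (0 : k ⊕ k → F) (fun _ => (Fintype.card F : ℂ)),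
      if_pos (Finset.mem_univ _)]
  rw [Finset.sum_comm] at h2
  have h3 : ∀ y : F, ∑ w : k ⊕ k → F, θ (y • w) = if y = 0 then (Fintype.card (k ⊕ k → F) : ℂ) else ∑ w, θ w := by
    intro y
    by_cases hy : y = 0
    · rw [if_pos hy]
      simp [hy, h.1]
    · rw [if_neg hy]
      let e : (k ⊕ k → F) ≃ (k ⊕ k → F) :=
        { toFun := fun w => y • w
          invFun := fun w => y⁻¹ • w
          left_inv := fun w => by
            change y⁻¹ • (y • w) = w
            rw [smul_smul, inv_mul_cancel₀ hy, one_smul]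
          right_inv := fun w => by
            change y • (y⁻¹ • w) = w
            rw [smul_smul, mul_inv_cancel₀ hy, one_smul] }
      exact Equiv.sum_comp e θ
  rw [Finset.sum_congr rfl fun y _ => h3 y, ← Finset.add_sum_erase _ _ (Finset.mem_univ (0 : F)), if_pos rfl,
    Finset.sum_congr rfl (g := fun _ => ∑ w, θ w) (fun y hy => by rw [if_neg (Finset.ne_of_mem_erase hy)]),
    Finset.sum_const, Finset.card_erase_of_mem (Finset.mem_univ _), Finset.card_univ, sum_th h] at h2
  have hq : 2 ≤ Fintype.card F := Fintype.one_lt_card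
  obtain ⟨p, hp⟩ : ∃ p, Fintype.card F = p + 2 := ⟨Fintype.card F - 2, by omega⟩
  have h4 := card_th hψ h
  set S : ℤ := (2 * (Finset.univ.filter fun v => θ v = 1).card - Fintype.card (k ⊕ k → F) : ℤ) with hS
  have h5 : (((Fintype.card F ^ Fintype.card k : ℕ) : ℤ) ^ 2 + ((Fintype.card F : ℤ) - 1) * S) = Fintype.card F := by
    have h6 : (((((Fintype.card F ^ Fintype.card k : ℕ) : ℤ) ^ 2 + ((Fintype.card F : ℤ) - 1) * S) : ℤ) : ℂ) =
        (((Fintype.card F : ℤ)) : ℂ) := by
      rw [card_fun, nsmul_eq_mul, Nat.cast_sub (by omega)] at h2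
      push_cast at h2 ⊢
      linear_combination h2
    exact_mod_cast h6
  -- powers
  obtain ⟨t, ht⟩ : ∃ t, Fintype.card k = t + 2 := ⟨Fintype.card k - 2, by omega⟩
  set Q : ℤ := (Fintype.card F : ℤ) ^ Fintype.card k with hQ
  have hQ' : ((Fintype.card F ^ Fintype.card k : ℕ) : ℤ) = Q := by rw [hQ]; push_cast; rfl
  rw [hQ'] at h5
  have hqz : (2 : ℤ) ≤ Fintype.card F := by exact_mod_cast hq
  have hQ2 : (Fintype.card F : ℤ) ^ 2 ≤ Q := by
    rw [hQ]
    exact pow_le_pow_right₀ (by omega) hk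
  rcases h4 with h4 | h4
  · rw [h4] at h5
    nlinarith
  · rw [h4] at h5
    nlinarith

/-- the surjectivity needed for the orbit count -/
theorem exists_quad {ψ : AddChar F ℂ} (hψ : ψ ≠ 0) {δ : F} (hδ : ψ δ = 1) :
    ∃ c : F, ∀ y : F, ψ (δ * (c * y)) * ψ (c * (y * y)) = ψ y := by
  classical
  -- `ψ (y ^ 2) = ψ (β y)`
  let ψ2 : AddChar F ℂ :=
    { toFun := fun y => ψ (y * y)
      map_zero_eq_one' := by rw [mul_zero, AddChar.map_zero_eq_one]
      map_add_eq_mul' := fun a b => by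
        rw [← AddChar.map_add_eq_mul]
        congr 1
        have : (a + b) * (a + b) = a * a + b * b + (a * b + a * b) := by ring
        rw [this, CharTwo.add_self_eq_zero, add_zero] }
  obtain ⟨β, hβ⟩ := exists_shift hψ ψ2
  have hβ' : ∀ y, ψ (y * y) = ψ (β * y) := hβ
  have hsqr : ∀ c : F, ∃ z : F, z * z = c := fun c => by
    obtain ⟨z, hz⟩ := FiniteField.isSquare_of_char_two (F := F) (by
      exact ringChar.eq F 2) c
    exact ⟨z, hz.symm⟩
  have hβ0 : β ≠ 0 := by
    rintro rfl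
    apply hψ
    ext y
    obtain ⟨z, hz⟩ := hsqr y
    rw [← hz, hβ', zero_mul, AddChar.map_zero_eq_one, AddChar.zero_apply]
  let L : F →+ F :=
    { toFun := fun u => u * u + β * u
      map_zero' := by ring
      map_add' := fun a b => by
        have : (a + b) * (a + b) + β * (a + b) = (a * a + β * a) + (b * b + β * b) + (a * b + a * b) := by ring
        rw [this, CharTwo.add_self_eq_zero, add_zero] }
  have hL : ∀ u, L u = u * u + β * u := fun _ => rfl
  have hLψ : ∀ u, ψ (L u) = 1 := by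
    intro u
    rw [hL, AddChar.map_add_eq_mul, hβ']
    exact psi_sq (F := F) ψ _
  have hker : ∀ u, L u = 0 ↔ u = 0 ∨ u = β := by
    intro u
    rw [hL]
    constructor
    · intro h
      have : u * (u + β) = 0 := by rw [← h]; ring
      rcases mul_eq_zero.1 this with h1 | h1
      · exact Or.inl h1
      · right
        rw [← sub_eq_zero, CharTwo.sub_eq_add, h1]
    · rintro (rfl | rfl)
      · ring
      · rw [CharTwo.add_self_eq_zero]
  have hkc : Nat.card L.ker = 2 := by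
    have : (L.ker : Set F) = {0, β} := by
      ext u
      rw [SetLike.mem_coe, AddMonoidHom.mem_ker, hker]
      rfl
    have h2 : Nat.card L.ker = Nat.card ((L.ker : Set F)) := rfl
    rw [h2, this, Nat.card_coe_set_eq, Set.ncard_pair hβ0.symm]
  have hidx : L.range.index = 2 := by
    have h1 := L.ker.card_mul_index
    have h2 := L.range.card_mul_index
    rw [AddSubgroup.index_ker, hkc] at h1
    have h3 : 0 < Nat.card L.range := Nat.card_pos
    have h4 : Nat.card L.range * L.range.index = Nat.card L.range * 2 := by rw [h2, ← h1, mul_comm]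
    exact Nat.eq_of_mul_eq_mul_left h3 h4
  have hmem : δ ∈ L.range := by
    by_contra hδR
    apply hψ
    ext x
    rw [AddChar.zero_apply]
    by_cases hx : x ∈ L.range
    · obtain ⟨u, rfl⟩ := hx
      exact hLψ u
    · have h1 : x + δ ∈ L.range := by
        rw [AddSubgroup.add_mem_iff_of_index_two hidx]
        exact iff_of_false hx hδR
      obtain ⟨u, hu⟩ := h1
      have h2 := hLψ u
      rw [hu, AddChar.map_add_eq_mul, hδ, mul_one] at h2
      exact h2
  obtain ⟨u, hu0, hu⟩ : ∃ u, u ≠ 0 ∧ L u = δ := by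
    obtain ⟨u, hu⟩ := hmem
    by_cases h0 : u = 0
    · refine ⟨β, hβ0, ?_⟩
      rw [← hu, h0, map_zero]
      exact (hker β).2 (Or.inr rfl)
    · exact ⟨u, h0, hu⟩
  refine ⟨u⁻¹ * u⁻¹, fun y => ?_⟩
  have h1 : u⁻¹ * u⁻¹ * (y * y) = (u⁻¹ * y) * (u⁻¹ * y) := by ring
  rw [h1, hβ', ← AddChar.map_add_eq_mul, ← hu, hL]
  congr 1
  field_simp
  have : (u + β) + β = u := by rw [add_assoc, CharTwo.add_self_eq_zero, add_zero]
  linear_combination y * this

end Cfsg.Agent.LSSp
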