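import Cfsg.Agent.LSSp.Odd

/-!
The Weil representation of the symplectic group in odd characteristic.
-/

set_option autoImplicit false
set_option linter.unusedSectionVars false
set_option linter.style.haveILetI false

namespace Cfsg.Agent.LSSp

open Module Matrix Cfsg.Agent.ClassSp Cfsg.Agent.H39 Cfsg.Agent.LSU

variable {l : Type*} [Fintype l] [DecidableEq l] {F : Type*} [Field F] [Fintype F]

/-- the space of functions -/
abbrev HS (l F : Type*) := (l → F) → ℂ

variable (ψ : AddChar F ℂ)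

/-- Heisenberg operators -/
def hz (v : l ⊕ l → F) : HS l F →ₗ[ℂ] HS l F where
  toFun φ x := ψ ((∑ i, v (Sum.inr i) * x i) + 2⁻¹ * ∑ i, v (Sum.inl i) * v (Sum.inr i)) *
    φ (fun i => x i + v (Sum.inl i))
  map_add' a b := by funext x; simp only [Pi.add_apply]; ring
  map_smul' c a := by funext x; simp only [Pi.smul_apply, smul_eq_mul, RingHom.id_apply]; ring

theorem hz_apply (v : l ⊕ l → F) (φ : HS l F) (x : l → F) :
    hz ψ v φ x = ψ ((∑ i, v (Sum.inr i) * x i) + 2⁻¹ * ∑ i, v (Sum.inl i) * v (Sum.inr i)) *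
    φ (fun i => x i + v (Sum.inl i)) := rfl

theorem hz_mul (h2 : (2 : F) ≠ 0) (v w : l ⊕ l → F) : hz ψ v * hz ψ w = ψ (2⁻¹ * sf v w) • hz ψ (v + w) := by
  apply LinearMap.ext; intro φ
  funext x
  rw [Module.End.mul_apply, hz_apply, hz_apply, LinearMap.smul_apply, Pi.smul_apply, hz_apply, smul_eq_mul,
    ← mul_assoc, ← mul_assoc, ← AddChar.map_add_eq_mul, ← AddChar.map_add_eq_mul]
  have e1 : (fun i => x i + v (Sum.inl i) + w (Sum.inl i)) = fun i => x i + (v + w) (Sum.inl i) := by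
    funext i; simp only [Pi.add_apply]; ring
  rw [e1]
  congr 2
  simp only [sf, Pi.add_apply, Finset.mul_sum, ← Finset.sum_add_distrib]
  refine Finset.sum_congr rfl fun i _ => ?_
  field_simp
  ring

theorem hz_zero : hz ψ (0 : l ⊕ l → F) = 1 := by
  apply LinearMap.ext; intro φ
  funext x
  rw [hz_apply]
  simp

theorem hz_neg (h2 : (2 : F) ≠ 0) (v : l ⊕ l → F) : hz ψ v * hz ψ (-v) = 1 := by
  rw [hz_mul ψ h2, sf_neg_right, sf_self, neg_zero, mul_zero, AddChar.map_zero_eq_one, one_smul, add_neg_cancel, hz_zero]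

theorem hz_neg' (h2 : (2 : F) ≠ 0) (v : l ⊕ l → F) : hz ψ (-v) * hz ψ v = 1 := by
  have := hz_neg ψ h2 (-v)
  rwa [neg_neg] at this

theorem hz_comm (h2 : (2 : F) ≠ 0) (u v : l ⊕ l → F) : hz ψ u * hz ψ v = ψ (sf u v) • (hz ψ v * hz ψ u) := by
  rw [hz_mul ψ h2, hz_mul ψ h2, smul_smul, ← AddChar.map_add_eq_mul, add_comm v]
  congr 2
  rw [sf_swap v u]
  field_simp
  ring

theorem trace_hz (h2 : (2 : F) ≠ 0) (hψ : ψ ≠ 0) {v : l ⊕ l → F} (hv : v ≠ 0) : LinearMap.trace ℂ _ (hz ψ v) = 0 := by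
  obtain ⟨u, hu⟩ := exists_sf_ne_zero hv
  obtain ⟨y, hy⟩ := exists_ne_of_ne_zero hψ
  have h3 : ψ (sf ((y * (sf u v)⁻¹) • u) v) ≠ 1 := by
    rw [sf_smul_left, inv_mul_cancel_right₀ hu]
    exact hy
  exact trace_eq_zero_of_twist (hz ψ ((y * (sf u v)⁻¹) • u)) (hz ψ (-((y * (sf u v)⁻¹) • u))) (hz ψ v) _
    (hz_neg ψ h2 _) (hz_neg' ψ h2 _) h3 (hz_comm ψ h2 _ _)

/-- irreducibility of the Heisenberg operators -/
theorem inv_top (hψ : ψ ≠ 0) (W : Submodule ℂ (HS l F)) (hW : W ≠ ⊥) (hinv : ∀ v, ∀ φ ∈ W, hz ψ v φ ∈ W) : W = ⊤ := by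
  classical
  obtain ⟨φ, hφ, hφ0⟩ := (Submodule.ne_bot_iff _).1 hW
  obtain ⟨x₀, hx₀⟩ : ∃ x, φ x ≠ 0 := by
    by_contra hcon
    push Not at hcon
    exact hφ0 (funext hcon)
  have hprim := AddChar.IsPrimitive.of_ne_one (ψ := ψ) (by rwa [AddChar.one_eq_zero])
  -- the delta function
  have h1 : (Pi.single x₀ 1 : HS l F) ∈ W := by
    set η : HS l F := ∑ b : l → F, ψ (-(∑ i, b i * x₀ i)) • hz ψ (Sum.elim 0 b) φ with hη
    have hηW : η ∈ W := W.sum_mem fun b _ => W.smul_mem _ (hinv _ φ hφ)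
    have hηx : η = ((Fintype.card (l → F) : ℂ) * φ x₀) • (Pi.single x₀ 1 : HS l F) := by
      funext x
      rw [hη, Finset.sum_apply]
      have h2 : ∀ b : l → F, (ψ (-(∑ i, b i * x₀ i)) • hz ψ (Sum.elim 0 b) φ) x =
          ψ (∑ i, b i * (x i - x₀ i)) * φ x := by
        intro b
        rw [Pi.smul_apply, hz_apply, smul_eq_mul, ← mul_assoc, ← AddChar.map_add_eq_mul]
        simp only [Sum.elim_inl, Sum.elim_inr, Pi.zero_apply, zero_mul, Finset.sum_const_zero, mul_zero, add_zero]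
        congr 2
        rw [← Finset.sum_neg_distrib, ← Finset.sum_add_distrib]
        exact Finset.sum_congr rfl fun i _ => by ring
      rw [Finset.sum_congr rfl fun b _ => h2 b, ← Finset.sum_mul]
      let χ : AddChar (l → F) ℂ :=
        { toFun := fun b => ψ (∑ i, b i * (x i - x₀ i))
          map_zero_eq_one' := by simp
          map_add_eq_mul' := fun a b => by
            rw [← AddChar.map_add_eq_mul, ← Finset.sum_add_distrib]
            congr 1
            exact Finset.sum_congr rfl fun i _ => by rw [Pi.add_apply]; ring }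
      have h3 : ∑ b : l → F, ψ (∑ i, b i * (x i - x₀ i)) = ∑ b, χ b := rfl
      rw [h3, AddChar.sum_eq_ite]
      by_cases hx : x = x₀
      · rw [if_pos, hx, Pi.smul_apply, Pi.single_eq_same, smul_eq_mul, mul_one]
        ext b
        change ψ (∑ i, b i * (x i - x₀ i)) = 1
        rw [hx]; simp
      · rw [if_neg, Pi.smul_apply, Pi.single_eq_of_ne hx, smul_zero, zero_mul]
        intro h4
        obtain ⟨i, hi⟩ : ∃ i, x i ≠ x₀ i := by
          by_contra hcon
          push Not at hcon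
          exact hx (funext hcon)
        obtain ⟨y, hy⟩ := exists_ne_of_ne_zero hψ
        apply hy
        have h5 := DFunLike.congr_fun h4 (Pi.single i (y * (x i - x₀ i)⁻¹))
        change ψ (∑ j, (Pi.single i (y * (x i - x₀ i)⁻¹) : l → F) j * (x j - x₀ j)) = 1 at h5
        rw [Finset.sum_eq_single i (fun j _ hj => by rw [Pi.single_eq_of_ne hj, zero_mul])
          (fun h => absurd (Finset.mem_univ _) h), Pi.single_eq_same, inv_mul_cancel_right₀ (sub_ne_zero.2 hi)] at h5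
        exact h5
    rw [hηx] at hηW
    have hc : (Fintype.card (l → F) : ℂ) * φ x₀ ≠ 0 := mul_ne_zero (by simp [Fintype.card_ne_zero]) hx₀
    exact (Submodule.smul_mem_iff _ hc).1 hηW
  have h2 : ∀ y : l → F, (Pi.single y 1 : HS l F) ∈ W := by
    intro y
    have h3 := hinv (Sum.elim (x₀ - y) 0) _ h1
    have h4 : hz ψ (Sum.elim (x₀ - y) 0) (Pi.single x₀ 1 : HS l F) = Pi.single y 1 := by
      funext x
      rw [hz_apply]
      simp only [Sum.elim_inl, Sum.elim_inr, Pi.zero_apply, zero_mul, mul_zero, Finset.sum_const_zero, add_zero,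
        AddChar.map_zero_eq_one, one_mul, Pi.sub_apply]
      by_cases hx : x = y
      · have : (fun i => x i + (x₀ i - y i)) = x₀ := by funext i; rw [hx]; ring
        rw [this, hx, Pi.single_eq_same, Pi.single_eq_same]
      · rw [Pi.single_eq_of_ne hx, Pi.single_eq_of_ne]
        intro h
        apply hx
        funext i
        have := congrFun h i
        linear_combination this
    rwa [h4] at h3
  rw [eq_top_iff]
  intro η _
  have h3 : η = ∑ y, η y • (Pi.single y 1 : HS l F) := by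
    funext x
    rw [Finset.sum_apply, Finset.sum_eq_single x]
    · simp
    · intro y _ hy
      rw [Pi.smul_apply, Pi.single_eq_of_ne (Ne.symm hy), smul_zero]
    · intro h; exact absurd (Finset.mem_univ _) h
  rw [h3]
  exact W.sum_mem fun y _ => W.smul_mem _ (h2 y)

/-- commutant -/
theorem scalar_of_comm (hψ : ψ ≠ 0) (A : HS l F →ₗ[ℂ] HS l F) (hA : ∀ v, A * hz ψ v = hz ψ v * A) :
    ∃ c : ℂ, A = c • (1 : HS l F →ₗ[ℂ] HS l F) := by
  classical
  haveI : Nontrivial (HS l F) := inferInstance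
  obtain ⟨c, hc⟩ := Module.End.exists_eigenvalue A
  refine ⟨c, ?_⟩
  have h1 := inv_top ψ hψ (Module.End.eigenspace A c) hc (by
    intro v φ hφ
    rw [Module.End.mem_eigenspace_iff] at hφ ⊢
    have h3 : A (hz ψ v φ) = hz ψ v (A φ) := congrArg (fun B : HS l F →ₗ[ℂ] HS l F => B φ) (hA v)
    rw [h3, hφ, map_smul])
  apply LinearMap.ext; intro φ
  have h2 : φ ∈ Module.End.eigenspace A c := by rw [h1]; exact Submodule.mem_top
  exact Module.End.mem_eigenspace_iff.1 h2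

/-- the intertwining operators -/
noncomputable def TW (g : symplecticGroup l F) : HS l F →ₗ[ℂ] HS l F := ∑ v : l ⊕ l → F, hz ψ (ac g v) * hz ψ (-v)

theorem TW_hz (h2 : (2 : F) ≠ 0) (g : symplecticGroup l F) (u : l ⊕ l → F) :
    TW ψ g * hz ψ u = hz ψ (ac g u) * TW ψ g := by
  rw [TW, Finset.sum_mul, Finset.mul_sum, ← Equiv.sum_comp (Equiv.addRight u) (fun v => hz ψ (ac g v) * hz ψ (-v) * hz ψ u)]
  refine Finset.sum_congr rfl fun w _ => ?_
  rw [Equiv.coe_addRight, mul_assoc, hz_mul ψ h2, ← mul_assoc, hz_mul ψ h2, ac_add, mul_smul_comm, smul_mul_assoc,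
    add_comm (ac g u), sf_ac]
  have e1 : -(w + u) + u = -w := by abel
  have e2 : sf (-(w + u)) u = sf u w := by
    rw [sf_neg_left, sf_add_left, sf_self, add_zero, ← sf_swap]
  rw [e1, e2]

theorem trace_TW (h2 : (2 : F) ≠ 0) (hψ : ψ ≠ 0) (g : symplecticGroup l F) : LinearMap.trace ℂ _ (TW ψ g) ≠ 0 := by
  classical
  have h1 : ∀ v : l ⊕ l → F, LinearMap.trace ℂ _ (hz ψ (ac g v) * hz ψ (-v)) =
      if ac g v = v then (Fintype.card (l → F) : ℂ) else 0 := by
    intro v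
    split_ifs with h
    · rw [h, hz_neg ψ h2, LinearMap.trace_one, finrank_fintype_fun_eq_card]
    · rw [hz_mul ψ h2, map_smul, trace_hz ψ h2 hψ, smul_zero]
      rwa [← sub_eq_add_neg, ne_eq, sub_eq_zero]
  rw [TW, map_sum, Finset.sum_congr rfl fun v _ => h1 v, Finset.sum_ite, Finset.sum_const_zero, add_zero, Finset.sum_const,
    nsmul_eq_mul]
  refine mul_ne_zero ?_ (by simp [Fintype.card_ne_zero])
  have : (Finset.univ.filter fun v : l ⊕ l → F => ac g v = v).card ≠ 0 :=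
    Finset.card_ne_zero_of_mem (a := 0) (by rw [Finset.mem_filter]; exact ⟨Finset.mem_univ _, ac_zero g⟩)
  exact_mod_cast this

theorem TW_inj (h2 : (2 : F) ≠ 0) (hψ : ψ ≠ 0) (g : symplecticGroup l F) : Function.Injective (TW ψ g) := by
  rw [← LinearMap.ker_eq_bot]
  by_contra hne
  have h1 := inv_top ψ hψ _ hne (by
    intro v φ hφ
    rw [LinearMap.mem_ker] at hφ ⊢
    have h3 : TW ψ g (hz ψ v φ) = hz ψ (ac g v) (TW ψ g φ) :=
      congrArg (fun B : HS l F →ₗ[ℂ] HS l F => B φ) (TW_hz ψ h2 g v)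
    rw [h3, hφ, map_zero])
  apply trace_TW ψ h2 hψ g
  rw [LinearMap.ker_eq_top] at h1
  rw [h1, map_zero]

/-- intertwiners are proportional -/
theorem prop_of_intertwine (h2 : (2 : F) ≠ 0) (hψ : ψ ≠ 0) (g : symplecticGroup l F) (A : HS l F →ₗ[ℂ] HS l F)
    (hA : ∀ u, A * hz ψ u = hz ψ (ac g u) * A) : ∃ c : ℂ, A = c • TW ψ g := by
  have hbij : Function.Bijective (TW ψ g) := ⟨TW_inj ψ h2 hψ g, LinearMap.injective_iff_surjective.1 (TW_inj ψ h2 hψ g)⟩
  let e := LinearEquiv.ofBijective (TW ψ g) hbij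
  have he1 : (TW ψ g) * (e.symm : HS l F →ₗ[ℂ] HS l F) = 1 := by
    apply LinearMap.ext; intro φ
    exact e.apply_symm_apply φ
  have he2 : (e.symm : HS l F →ₗ[ℂ] HS l F) * (TW ψ g) = 1 := by
    apply LinearMap.ext; intro φ
    exact e.symm_apply_apply φ
  obtain ⟨c, hc⟩ := scalar_of_comm ψ hψ ((e.symm : HS l F →ₗ[ℂ] HS l F) * A) (by
    intro v
    have h3 : hz ψ v * (e.symm : HS l F →ₗ[ℂ] HS l F) = (e.symm : HS l F →ₗ[ℂ] HS l F) * hz ψ (ac g v) := by
      calc hz ψ v * (e.symm : HS l F →ₗ[ℂ] HS l F)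
          = ((e.symm : HS l F →ₗ[ℂ] HS l F) * (TW ψ g)) * (hz ψ v * (e.symm : HS l F →ₗ[ℂ] HS l F)) := by rw [he2, one_mul]
        _ = (e.symm : HS l F →ₗ[ℂ] HS l F) * ((TW ψ g) * hz ψ v) * (e.symm : HS l F →ₗ[ℂ] HS l F) := by
            simp only [mul_assoc]
        _ = (e.symm : HS l F →ₗ[ℂ] HS l F) * hz ψ (ac g v) := by
            rw [TW_hz ψ h2]; simp only [mul_assoc]; rw [he1, mul_one]
    rw [mul_assoc, hA, ← mul_assoc, ← h3, mul_assoc])
  refine ⟨c, ?_⟩
  have h4 : A = (TW ψ g) * ((e.symm : HS l F →ₗ[ℂ] HS l F) * A) := by rw [← mul_assoc, he1, one_mul]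
  rw [h4, hc, mul_smul_comm, mul_one]

theorem TW_mul (h2 : (2 : F) ≠ 0) (hψ : ψ ≠ 0) (g h : symplecticGroup l F) :
    ∃ c : ℂ, c ≠ 0 ∧ TW ψ g * TW ψ h = c • TW ψ (g * h) := by
  obtain ⟨c, hc⟩ := prop_of_intertwine ψ h2 hψ (g * h) (TW ψ g * TW ψ h) (by
    intro u
    rw [mul_assoc, TW_hz ψ h2, ← mul_assoc, TW_hz ψ h2, mul_assoc, ac_mul])
  refine ⟨c, ?_, hc⟩
  rintro rfl
  rw [zero_smul] at hc
  haveI : Nontrivial (HS l F) := inferInstance
  obtain ⟨φ, hφ⟩ := exists_ne (0 : HS l F)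
  have h3 : TW ψ g (TW ψ h φ) = 0 := congrArg (fun B : HS l F →ₗ[ℂ] HS l F => B φ) hc
  apply hφ
  apply TW_inj ψ h2 hψ h
  rw [map_zero]
  apply TW_inj ψ h2 hψ g
  rw [map_zero, h3]

/-- parity -/
def PY (l F : Type*) [Field F] : HS l F →ₗ[ℂ] HS l F where
  toFun φ x := φ (-x)
  map_add' _ _ := rfl
  map_smul' _ _ := rfl

theorem PY_apply (φ : HS l F) (x : l → F) : PY l F φ x = φ (-x) := rfl

theorem PY_PY (φ : HS l F) : PY l F (PY l F φ) = φ := by
  funext x
  rw [PY_apply, PY_apply, neg_neg]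

theorem PY_hz (v : l ⊕ l → F) : PY l F * hz ψ v = hz ψ (-v) * PY l F := by
  apply LinearMap.ext; intro φ
  funext x
  rw [Module.End.mul_apply, Module.End.mul_apply, PY_apply, hz_apply, hz_apply, PY_apply]
  congr 1
  · congr 1
    simp [mul_comm]
  · congr 1
    funext i
    simp
    ring

theorem PY_TW (g : symplecticGroup l F) : PY l F * TW ψ g = TW ψ g * PY l F := by
  rw [TW, Finset.mul_sum, Finset.sum_mul, ← Equiv.sum_comp (Equiv.neg _) (fun v => hz ψ (ac g v) * hz ψ (-v) * PY l F)]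
  refine Finset.sum_congr rfl fun v _ => ?_
  have e : ac g (-v) = - ac g v := by
    have := ac_smul g (-1) v
    rwa [neg_one_smul, neg_one_smul] at this
  rw [Equiv.neg_apply, ← mul_assoc, PY_hz, mul_assoc, PY_hz, ← mul_assoc, e]

/-- odd and even functions -/
def HP (l F : Type*) [Field F] (ε : ℂ) : Submodule ℂ (HS l F) where
  carrier := {φ | PY l F φ = ε • φ}
  add_mem' {a b} ha hb := by
    change PY l F (a + b) = ε • (a + b)
    rw [map_add, ha, hb, smul_add]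
  zero_mem' := by
    change PY l F 0 = ε • 0
    rw [map_zero, smul_zero]
  smul_mem' c a ha := by
    change PY l F (c • a) = ε • (c • a)
    rw [map_smul, ha, smul_comm]

theorem mem_HP {ε : ℂ} {φ : HS l F} : φ ∈ HP l F ε ↔ PY l F φ = ε • φ := Iff.rfl

theorem TW_mem (g : symplecticGroup l F) (ε : ℂ) : ∀ φ ∈ HP l F ε, TW ψ g φ ∈ HP l F ε := by
  intro φ hφ
  rw [mem_HP] at hφ ⊢
  have h1 : PY l F (TW ψ g φ) = TW ψ g (PY l F φ) := congrArg (fun B : HS l F →ₗ[ℂ] HS l F => B φ) (PY_TW ψ g)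
  rw [h1, hφ, map_smul]

/-- restriction to even or odd functions -/
noncomputable def TR (ε : ℂ) (g : symplecticGroup l F) : HP l F ε →ₗ[ℂ] HP l F ε := (TW ψ g).restrict (TW_mem ψ g ε)

theorem coe_TR (ε : ℂ) (g : symplecticGroup l F) (φ : HP l F ε) : ((TR ψ ε g φ : HP l F ε) : HS l F) = TW ψ g φ := rfl

theorem det_TR (h2 : (2 : F) ≠ 0) (hψ : ψ ≠ 0) (ε : ℂ) (g : symplecticGroup l F) : LinearMap.det (TR ψ ε g) ≠ 0 := by
  intro h0
  have h1 := LinearMap.bot_lt_ker_of_det_eq_zero h0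
  apply h1.ne'
  rw [LinearMap.ker_eq_bot]
  intro a b hab
  apply Subtype.ext
  apply TW_inj ψ h2 hψ g
  exact congrArg Subtype.val hab

theorem isProj_HP {ε : ℂ} (hε : ε * ε = 1) : LinearMap.IsProj (HP l F ε) ((2 : ℂ)⁻¹ • (1 + ε • PY l F)) := by
  refine ⟨fun φ => ?_, fun φ hφ => ?_⟩
  · rw [mem_HP, LinearMap.smul_apply, map_smul, LinearMap.add_apply, map_add, LinearMap.smul_apply, map_smul,
      PY_PY, smul_comm ε]
    congr 1
    change PY l F φ + ε • φ = ε • (φ + ε • PY l F φ)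
    rw [smul_add, smul_smul, hε, one_smul, add_comm]
  · rw [LinearMap.smul_apply, LinearMap.add_apply, LinearMap.smul_apply, mem_HP.1 hφ, smul_smul, hε, one_smul]
    change (2 : ℂ)⁻¹ • (φ + φ) = φ
    rw [← two_smul ℂ φ, smul_smul, inv_mul_cancel₀ two_ne_zero, one_smul]

theorem trace_PY (h2 : (2 : F) ≠ 0) : LinearMap.trace ℂ _ (PY l F) = 1 := by
  classical
  rw [LinearMap.trace_eq_matrix_trace ℂ (Pi.basisFun ℂ (l → F)), Matrix.trace, Finset.sum_eq_single (0 : l → F)]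
  · rw [Matrix.diag_apply, LinearMap.toMatrix_apply, Pi.basisFun_apply, Pi.basisFun_repr, PY_apply, neg_zero,
      Pi.single_eq_same]
  · intro x _ hx
    rw [Matrix.diag_apply, LinearMap.toMatrix_apply, Pi.basisFun_apply, Pi.basisFun_repr, PY_apply, Pi.single_eq_of_ne]
    intro h
    apply hx
    funext i
    have h3 := congrFun h i
    rw [Pi.neg_apply] at h3
    have h4 : (2 : F) * x i = 0 := by linear_combination -h3
    exact (mul_eq_zero.1 h4).resolve_left h2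
  · intro h; exact absurd (Finset.mem_univ _) h

theorem finrank_HP (h2 : (2 : F) ≠ 0) : 2 * finrank ℂ (HP l F 1) = Fintype.card F ^ Fintype.card l + 1 ∧
    2 * finrank ℂ (HP l F (-1)) + 1 = Fintype.card F ^ Fintype.card l := by
  have h1 := (isProj_HP (l := l) (F := F) (ε := 1) (by norm_num)).trace
  have h3 := (isProj_HP (l := l) (F := F) (ε := -1) (by norm_num)).trace
  rw [map_smul, map_add, map_smul, trace_PY h2, LinearMap.trace_one, finrank_fintype_fun_eq_card, Fintype.card_fun] at h1 h3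
  constructor
  · have : ((2 * finrank ℂ (HP l F 1) : ℕ) : ℂ) = ((Fintype.card F ^ Fintype.card l + 1 : ℕ) : ℂ) := by
      rw [Nat.cast_mul, ← h1]
      push_cast
      simp only [smul_eq_mul]
      ring
    exact_mod_cast this
  · have : ((2 * finrank ℂ (HP l F (-1)) + 1 : ℕ) : ℂ) = ((Fintype.card F ^ Fintype.card l : ℕ) : ℂ) := by
      rw [Nat.cast_add, Nat.cast_mul, ← h3]
      push_cast
      simp only [smul_eq_mul]
      ring
    exact_mod_cast this

/-- normalizing factor -/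
noncomputable def mu (g : symplecticGroup l F) : ℂ := LinearMap.det (TR ψ 1 g) / LinearMap.det (TR ψ (-1) g)

theorem mu_ne (h2 : (2 : F) ≠ 0) (hψ : ψ ≠ 0) (g : symplecticGroup l F) : mu ψ g ≠ 0 :=
  div_ne_zero (det_TR ψ h2 hψ 1 g) (det_TR ψ h2 hψ (-1) g)

theorem TR_mul {g h : symplecticGroup l F} {c : ℂ} (hc : TW ψ g * TW ψ h = c • TW ψ (g * h)) (ε : ℂ) :
    TR ψ ε g * TR ψ ε h = c • TR ψ ε (g * h) := by
  apply LinearMap.ext; intro φ
  apply Subtype.ext
  exact congrArg (fun B : HS l F →ₗ[ℂ] HS l F => B φ) hc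

theorem mu_mul (h2 : (2 : F) ≠ 0) (hψ : ψ ≠ 0) {g h : symplecticGroup l F} {c : ℂ} (hc0 : c ≠ 0)
    (hc : TW ψ g * TW ψ h = c • TW ψ (g * h)) : mu ψ g * mu ψ h = c * mu ψ (g * h) := by
  have h1 := congrArg LinearMap.det (TR_mul ψ hc 1)
  have h3 := congrArg LinearMap.det (TR_mul ψ hc (-1))
  rw [map_mul, LinearMap.det_smul] at h1 h3
  obtain ⟨f1, f2⟩ := finrank_HP (l := l) (F := F) h2
  have f3 : finrank ℂ (HP l F 1) = finrank ℂ (HP l F (-1)) + 1 := by omega
  rw [mu, mu, mu, div_mul_div_comm, h1, h3, f3, pow_succ]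
  have h5 := det_TR ψ h2 hψ (-1) (g * h)
  have h6 : c ^ finrank ℂ (HP l F (-1)) ≠ 0 := pow_ne_zero _ hc0
  field_simp

theorem TR_inj (h2 : (2 : F) ≠ 0) (hψ : ψ ≠ 0) (ε : ℂ) (g : symplecticGroup l F) : Function.Injective (TR ψ ε g) := by
  intro a b hab
  apply Subtype.ext
  apply TW_inj ψ h2 hψ g
  exact congrArg Subtype.val hab

theorem weil_mul_aux (h2 : (2 : F) ≠ 0) (hψ : ψ ≠ 0) (g h : symplecticGroup l F) :
    (mu ψ (g * h))⁻¹ • TR ψ (-1) (g * h) = ((mu ψ g)⁻¹ • TR ψ (-1) g) * ((mu ψ h)⁻¹ • TR ψ (-1) h) := by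
  obtain ⟨c, hc0, hc⟩ := TW_mul ψ h2 hψ g h
  have h1 := mu_mul ψ h2 hψ hc0 hc
  have hg := mu_ne ψ h2 hψ g
  have hh := mu_ne ψ h2 hψ h
  have hgh := mu_ne ψ h2 hψ (g * h)
  rw [smul_mul_assoc, mul_smul_comm, TR_mul ψ hc, smul_smul, smul_smul, ← mul_inv, h1, mul_inv, mul_right_comm,
    inv_mul_cancel₀ hc0, one_mul]

/-- the Weil representation on odd functions -/
noncomputable def weil (h2 : (2 : F) ≠ 0) (hψ : ψ ≠ 0) : Representation ℂ (symplecticGroup l F) (HP l F (-1)) where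
  toFun g := (mu ψ g)⁻¹ • TR ψ (-1) g
  map_mul' g h := weil_mul_aux ψ h2 hψ g h
  map_one' := by
    have h1 := weil_mul_aux (l := l) ψ h2 hψ 1 1
    rw [mul_one] at h1
    apply LinearMap.ext; intro φ
    have h3 := congrArg (fun B : HP l F (-1) →ₗ[ℂ] HP l F (-1) => B φ) h1
    have hinj : Function.Injective ((mu ψ (1 : symplecticGroup l F))⁻¹ • TR ψ (-1) (1 : symplecticGroup l F)) := by
      intro a b hab
      apply TR_inj ψ h2 hψ (-1) 1
      exact smul_right_injective _ (inv_ne_zero (mu_ne ψ h2 hψ 1)) hab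
    exact (hinj h3).symm

theorem weil_apply (h2 : (2 : F) ≠ 0) (hψ : ψ ≠ 0) (g : symplecticGroup l F) (φ : HP l F (-1)) :
    ((weil ψ h2 hψ g φ : HP l F (-1)) : HS l F) = (mu ψ g)⁻¹ • TW ψ g φ := rfl

/-- multiplication by a quadratic phase -/
def qm (c : F) (i₀ : l) : HS l F →ₗ[ℂ] HS l F where
  toFun φ x := ψ (2⁻¹ * c * x i₀ ^ 2) * φ x
  map_add' a b := by funext x; simp only [Pi.add_apply]; ring
  map_smul' d a := by funext x; simp only [Pi.smul_apply, smul_eq_mul, RingHom.id_apply]; ring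

theorem qm_apply (c : F) (i₀ : l) (φ : HS l F) (x : l → F) : qm ψ c i₀ φ x = ψ (2⁻¹ * c * x i₀ ^ 2) * φ x := rfl

theorem sf_inr (u : l ⊕ l → F) (i₀ : l) : sf u (Pi.single (Sum.inr i₀) 1) = u (Sum.inl i₀) := by
  rw [sf_swap, sf_single_inr_left, neg_neg]

theorem qm_hz (h2 : (2 : F) ≠ 0) (c : F) (i₀ : l) (u : l ⊕ l → F) :
    qm ψ c i₀ * hz ψ u = hz ψ (ac (tv (Pi.single (Sum.inr i₀) 1) (-c)) u) * qm ψ c i₀ := by
  apply LinearMap.ext; intro φ
  funext x
  rw [Module.End.mul_apply, Module.End.mul_apply, qm_apply, hz_apply, hz_apply, qm_apply, ac_tv, sf_inr,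
    ← mul_assoc, ← mul_assoc, ← AddChar.map_add_eq_mul, ← AddChar.map_add_eq_mul]
  have e1 : ∀ i, (u + (-c * u (Sum.inl i₀)) • (Pi.single (Sum.inr i₀) 1 : l ⊕ l → F)) (Sum.inl i) = u (Sum.inl i) := by
    intro i
    rw [Pi.add_apply, Pi.smul_apply, Pi.single_eq_of_ne (by simp), smul_zero, add_zero]
  have e2 : ∀ i, (u + (-c * u (Sum.inl i₀)) • (Pi.single (Sum.inr i₀) 1 : l ⊕ l → F)) (Sum.inr i) =
      u (Sum.inr i) + (-c * u (Sum.inl i₀)) * (Pi.single i₀ 1 : l → F) i := by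
    intro i
    rw [Pi.add_apply, Pi.smul_apply, smul_eq_mul]
    congr 2
    by_cases hi : i = i₀
    · rw [hi, Pi.single_eq_same, Pi.single_eq_same]
    · rw [Pi.single_eq_of_ne hi, Pi.single_eq_of_ne (by simpa using hi)]
  simp only [e1, e2]
  congr 2
  have e3 : ∑ i, (u (Sum.inr i) + (-c * u (Sum.inl i₀)) * (Pi.single i₀ 1 : l → F) i) * x i =
      (∑ i, u (Sum.inr i) * x i) + (-c * u (Sum.inl i₀)) * x i₀ := by
    rw [← Finset.sum_congr rfl (fun i _ => (add_mul (u (Sum.inr i)) ((-c * u (Sum.inl i₀)) * (Pi.single i₀ 1 : l → F) i) (x i)).symm),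
      Finset.sum_add_distrib]
    congr 1
    rw [Finset.sum_eq_single i₀ (fun j _ hj => by rw [Pi.single_eq_of_ne hj]; ring)
      (fun h => absurd (Finset.mem_univ _) h), Pi.single_eq_same, mul_one]
  have e4 : ∑ i, u (Sum.inl i) * (u (Sum.inr i) + (-c * u (Sum.inl i₀)) * (Pi.single i₀ 1 : l → F) i) =
      (∑ i, u (Sum.inl i) * u (Sum.inr i)) + (-c * u (Sum.inl i₀)) * u (Sum.inl i₀) := by
    rw [← Finset.sum_congr rfl (fun i _ => (mul_add (u (Sum.inl i)) (u (Sum.inr i)) ((-c * u (Sum.inl i₀)) * (Pi.single i₀ 1 : l → F) i)).symm),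
      Finset.sum_add_distrib]
    congr 1
    rw [Finset.sum_eq_single i₀ (fun j _ hj => by rw [Pi.single_eq_of_ne hj]; ring)
      (fun h => absurd (Finset.mem_univ _) h), Pi.single_eq_same, mul_one, mul_comm]
  rw [e3, e4]
  field_simp
  ring

theorem single_sub_mem (x : l → F) [DecidableEq (l → F)] :
    (Pi.single x 1 - Pi.single (-x) 1 : HS l F) ∈ HP l F (-1) := by
  rw [mem_HP]
  funext y
  rw [PY_apply, Pi.smul_apply, Pi.sub_apply, Pi.sub_apply, smul_eq_mul]
  have e : ∀ z w : l → F, (Pi.single z 1 : HS l F) (-w) = (Pi.single (-z) 1 : HS l F) w := by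
    intro z w
    by_cases h : w = -z
    · rw [h, neg_neg, Pi.single_eq_same, Pi.single_eq_same]
    · rw [Pi.single_eq_of_ne h, Pi.single_eq_of_ne]
      intro h'
      apply h
      rw [← h', neg_neg]
  rw [e, e, neg_neg]; ring

theorem weil_nontrivial (h2 : (2 : F) ≠ 0) (hψ : ψ ≠ 0) (hl : 2 ≤ Fintype.card l) :
    ∃ g φ, weil (l := l) ψ h2 hψ g φ ≠ φ := by
  classical
  by_contra hcon
  push Not at hcon
  obtain ⟨i₀, j₀, hij⟩ := Fintype.exists_pair_of_one_lt_card (by omega : 1 < Fintype.card l)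
  obtain ⟨y, hy⟩ := exists_ne_of_ne_zero hψ
  apply hy
  set c : F := 2 * y with hc
  set g := tv (Pi.single (Sum.inr i₀) 1 : l ⊕ l → F) (-c) with hg
  obtain ⟨lam, hlam⟩ := prop_of_intertwine ψ h2 hψ g (qm ψ c i₀) (qm_hz ψ h2 c i₀)
  have h1 : ∀ x : l → F, x ≠ 0 → ψ (2⁻¹ * c * x i₀ ^ 2) = lam * mu ψ g := by
    intro x hx
    have hxn : x ≠ -x := by
      intro h
      apply hx
      funext i
      have h3 := congrFun h i
      rw [Pi.neg_apply] at h3
      have h4 : (2 : F) * x i = 0 := by linear_combination h3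
      exact (mul_eq_zero.1 h4).resolve_left h2
    have h3 := congrArg (fun z : HP l F (-1) => (z : HS l F)) (hcon g ⟨_, single_sub_mem x⟩)
    simp only [weil_apply] at h3
    have h4 : TW ψ g (Pi.single x 1 - Pi.single (-x) 1 : HS l F) = mu ψ g • (Pi.single x 1 - Pi.single (-x) 1 : HS l F) := by
      have h6 := congrArg (fun z : HS l F => mu ψ g • z) h3
      simp only [smul_smul, mul_inv_cancel₀ (mu_ne ψ h2 hψ g), one_smul] at h6
      exact h6
    have h5 := congrArg (fun B : HS l F →ₗ[ℂ] HS l F => B (Pi.single x 1 - Pi.single (-x) 1 : HS l F) x) hlam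
    simp only [LinearMap.smul_apply, h4, qm_apply, Pi.smul_apply, Pi.sub_apply, smul_eq_mul] at h5
    rw [Pi.single_eq_same, Pi.single_eq_of_ne hxn, sub_zero, mul_one, mul_one] at h5
    exact h5
  have h3 := h1 (Pi.single j₀ 1) (by
    intro h
    have := congrFun h j₀
    rw [Pi.single_eq_same] at this
    exact one_ne_zero this)
  have h4 := h1 (Pi.single i₀ 1) (by
    intro h
    have := congrFun h i₀
    rw [Pi.single_eq_same] at this
    exact one_ne_zero this)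
  rw [Pi.single_eq_of_ne hij, ← h4, Pi.single_eq_same] at h3
  have e1 : (2⁻¹ : F) * c * 0 ^ 2 = 0 := by ring
  have e2 : (2⁻¹ : F) * c * 1 ^ 2 = y := by rw [hc]; field_simp
  rw [e1, e2, AddChar.map_zero_eq_one] at h3
  exact h3.symm

end Cfsg.Agent.LSSp
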