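import Cfsg.Agent.LSSp.Weil
import Cfsg.Agent.LSSp.Irr
import Cfsg.Agent.LSSL.Avg
import Cfsg.Agent.LSSL.Exist

/-!
Irreducibility of the odd part of the Weil representation.
-/

set_option autoImplicit false
set_option linter.unusedSectionVars false
set_option linter.style.haveILetI false

namespace Cfsg.Agent.LSSp

open Module Matrix Cfsg.Agent.ClassSp Cfsg.Agent.H39 Cfsg.Agent.LSU

section general
variable {G : Type*} [Group G] {V : Type*} [AddCommGroup V] [Module ℂ V]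

/-- restriction of a representation to an invariant subspace -/
def subR (ρ : Representation ℂ G V) (W : Submodule ℂ V) (h : ∀ g, ∀ v ∈ W, ρ g v ∈ W) : Representation ℂ G W where
  toFun g := (ρ g).restrict (h g)
  map_one' := by
    apply LinearMap.ext; intro v
    apply Subtype.ext
    change ρ 1 (v : V) = v
    rw [map_one]; rfl
  map_mul' g k := by
    apply LinearMap.ext; intro v
    apply Subtype.ext
    change ρ (g * k) (v : V) = ρ g (ρ k v)
    rw [map_mul]; rfl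

theorem coe_subR (ρ : Representation ℂ G V) (W : Submodule ℂ V) (h : ∀ g, ∀ v ∈ W, ρ g v ∈ W) (g : G) (v : W) :
    ((subR ρ W h g v : W) : V) = ρ g v := rfl

/-- if all invariant subspaces with nontrivial action are everything, the representation is irreducible -/
theorem irr_of_nontrivial [Finite G] [Nontrivial V] (ρ : Representation ℂ G V) (hnt : ∃ g v, ρ g v ≠ v)
    (h : ∀ W : Submodule ℂ V, (∀ g, ∀ v ∈ W, ρ g v ∈ W) → (∃ g, ∃ v ∈ W, ρ g v ≠ v) → W = ⊤) : ρ.IsIrreducible := by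
  set P := LSSL.avg ρ (⊤ : Subgroup G) with hP
  have hfix : ∀ v, v ∈ LSSL.fixS ρ ⊤ ↔ ∀ g, ρ g v = v := fun v => ⟨fun hv g => hv g (Subgroup.mem_top g), fun hv g _ => hv g⟩
  have hPc : ∀ g v, P (ρ g v) = P v := fun g v =>
    congrArg (fun A : V →ₗ[ℂ] V => A v) (LSSL.avg_mul_of_mem ρ (Subgroup.mem_top g))
  have hK : ∃ g, ∃ v ∈ LinearMap.ker P, ρ g v ≠ v := by
    by_contra hcon
    push Not at hcon
    obtain ⟨g, v, hgv⟩ := hnt
    apply hgv
    have h1 : P v - v ∈ LinearMap.ker P := by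
      rw [LinearMap.mem_ker, map_sub, hP, LSSL.avg_of_fix ρ (LSSL.avg_mem ρ _ v), sub_self]
    have h2 : P v - v ∈ LSSL.fixS ρ ⊤ := (hfix _).2 fun g => hcon g _ h1
    have h3 : P (P v - v) = P v - v := LSSL.avg_of_fix ρ h2
    rw [LinearMap.mem_ker.1 h1] at h3
    have h4 : v = P v := by
      rw [eq_comm, ← sub_eq_zero, ← h3]
    rw [h4]
    exact (hfix _).1 (LSSL.avg_mem ρ _ v) g
  have hKtop := h (LinearMap.ker P) (fun g v hv => by
    rw [LinearMap.mem_ker] at hv ⊢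
    rw [hPc, hv]) hK
  have hzero : ∀ v, (∀ g, ρ g v = v) → v = 0 := by
    intro v hv
    have h1 : P v = v := LSSL.avg_of_fix ρ ((hfix v).2 hv)
    have h2 : v ∈ LinearMap.ker P := by rw [hKtop]; exact Submodule.mem_top
    rw [← h1, LinearMap.mem_ker.1 h2]
  apply LSSL.irr_of
  intro W hW
  by_cases hnt' : ∃ g, ∃ v ∈ W, ρ g v ≠ v
  · exact Or.inr (h W hW hnt')
  · left
    push Not at hnt'
    rw [eq_bot_iff]
    intro v hv
    rw [Submodule.mem_bot]
    exact hzero v fun g => hnt' g v hv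

end general

theorem weil_irr {n : ℕ} {F : Type*} [Field F] [Fintype F] (hn : 2 ≤ n) (h2 : (2 : F) ≠ 0) {ψ : AddChar F ℂ} (hψ : ψ ≠ 0) :
    Nontrivial (HP (Fin n) F (-1)) ∧ (weil (l := Fin n) ψ h2 hψ).IsIrreducible := by
  obtain ⟨g₀, φ₀, h0⟩ := weil_nontrivial (l := Fin n) ψ h2 hψ (by rwa [Fintype.card_fin])
  haveI : Nontrivial (HP (Fin n) F (-1)) := ⟨_, _, h0⟩
  refine ⟨inferInstance, ?_⟩
  apply irr_of_nontrivial _ ⟨g₀, φ₀, h0⟩
  intro W hW hnt
  obtain ⟨g, v, hv, hgv⟩ := hnt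
  obtain ⟨u, hu⟩ := exists_nt (subR (weil ψ h2 hψ) W hW) ⟨g, ⟨v, hv⟩, fun h => hgv (congrArg Subtype.val h)⟩
  have h1 := bound_odd h2 n W (subR (weil ψ h2 hψ) W hW) u hu
  have h3 := (finrank_HP (l := Fin n) (F := F) h2).2
  rw [Fintype.card_fin] at h3
  apply Submodule.eq_top_of_finrank_eq
  have h4 := Submodule.finrank_le W
  omega

theorem exists_weil {n : ℕ} {F : Type*} [Field F] [Fintype F] (hn : 2 ≤ n) (h2 : (2 : F) ≠ 0) :
    ∃ ρ : Representation ℂ (symplecticGroup (Fin n) F) (Fin ((Fintype.card F ^ n - 1) / 2) → ℂ), ρ.IsIrreducible := by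
  classical
  obtain ⟨ψ, hψ⟩ : ∃ ψ : AddChar F ℂ, ψ ≠ 0 := by
    haveI : Nontrivial (AddChar F ℂ) := by
      rw [← Fintype.one_lt_card_iff_nontrivial, AddChar.card_eq]
      exact Fintype.one_lt_card
    exact exists_ne 0
  obtain ⟨hnt, hirr⟩ := weil_irr (n := n) hn h2 hψ
  refine LSSL.exists_fin hirr ?_
  have h3 := (finrank_HP (l := Fin n) (F := F) h2).2
  rw [Fintype.card_fin] at h3
  omega

end Cfsg.Agent.LSSp
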